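import Mathlib.Combinatorics.SimpleGraph.Diam
import Mathlib.GroupTheory.OrderOfElement
import Mathlib.Tactic.Group

/-!
Graphs on a class joining two members with product of odd order.
-/

set_option autoImplicit false

namespace Cfsg.Agent.OddGraph

variable {G : Type*} [Group G] [Finite G] {p : G → Prop}

/-- The criterion for diameter two. -/
theorem connected_diam_two
    (hcommon : ∀ x y : G, p x → p y → ¬ Odd (orderOf (x * y)) →
      ∃ z, p z ∧ Odd (orderOf (x * z)) ∧ Odd (orderOf (z * y)))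
    (hne : ∃ x y : G, p x ∧ p y ∧ x ≠ y ∧ ¬ Odd (orderOf (x * y))) :
    (SimpleGraph.fromRel fun x y : {x : G // p x} => Odd (orderOf (x.1 * y.1))).Connected ∧
      (SimpleGraph.fromRel fun x y : {x : G // p x} => Odd (orderOf (x.1 * y.1))).diam = 2 := by
  classical
  set Γ := SimpleGraph.fromRel fun x y : {x : G // p x} => Odd (orderOf (x.1 * y.1)) with hΓ
  have hswap : ∀ a b : G, orderOf (a * b) = orderOf (b * a) := fun a b => by
    rw [show a * b = a * (b * a) * a⁻¹ by group, ← MulAut.conj_apply, MulEquiv.orderOf_eq]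
  obtain ⟨a, b, ha, hb, hab, hnadj⟩ := hne
  let u : {x : G // p x} := ⟨a, ha⟩
  let v : {x : G // p x} := ⟨b, hb⟩
  have huv : u ≠ v := fun e => hab (congrArg Subtype.val e)
  haveI : Nonempty {x : G // p x} := ⟨u⟩
  have hle : ∀ x y : {x : G // p x}, Γ.edist x y ≤ 2 := by
    intro x y
    by_cases hxy : x = y
    · subst hxy; simp
    by_cases hadj : Odd (orderOf (x.1 * y.1))
    · refine le_trans (SimpleGraph.edist_le (SimpleGraph.Walk.cons
        (show Γ.Adj x y from ⟨hxy, Or.inl hadj⟩) SimpleGraph.Walk.nil)) ?_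
      simp
    obtain ⟨z, hz, h1, h2⟩ := hcommon x.1 y.1 x.2 y.2 hadj
    have hzy : (⟨z, hz⟩ : {x : G // p x}) ≠ y := fun e => hadj (by
      rw [← congrArg Subtype.val e]; exact h1)
    have hxz : x ≠ ⟨z, hz⟩ := fun e => hadj (by
      rw [congrArg Subtype.val e]; exact h2)
    refine le_trans (SimpleGraph.edist_le (SimpleGraph.Walk.cons
      (show Γ.Adj x ⟨z, hz⟩ from ⟨hxz, Or.inl h1⟩) (SimpleGraph.Walk.cons
        (show Γ.Adj ⟨z, hz⟩ y from ⟨hzy, Or.inl h2⟩) SimpleGraph.Walk.nil))) ?_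
    simp
  have hdiam : Γ.ediam ≤ 2 := SimpleGraph.ediam_le_of_edist_le hle
  have htop : Γ.ediam ≠ ⊤ := ne_top_of_le_ne_top (by simp) hdiam
  refine ⟨SimpleGraph.connected_of_ediam_ne_top htop, ?_⟩
  have h2 : Γ.diam ≤ 2 := by
    have := ENat.toNat_le_toNat hdiam (by simp)
    exact this
  have hnt : Nontrivial {x : G // p x} := ⟨⟨u, v, huv⟩⟩
  have h0 := SimpleGraph.diam_ne_zero_of_ediam_ne_top htop
  have h1 : Γ.diam ≠ 1 := fun e => by
    have hadj : Γ.Adj u v := by
      rw [SimpleGraph.diam_eq_one.1 e]; exact huv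
    rcases hadj.2 with h | h
    · exact hnadj h
    · exact hnadj (by rw [hswap]; exact h)
  omega

end Cfsg.Agent.OddGraph
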