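import Cfsg.Agent.Linear.Classes
import Mathlib.FieldTheory.Finite.Basic
import Mathlib.LinearAlgebra.Matrix.ProjectiveSpecialLinearGroup

/-!
Products of two involutions of `PSL(2, q)`.
-/

set_option autoImplicit false
set_option linter.unusedSectionVars false

namespace Cfsg.Agent.OddGraph

open Matrix Finset
open scoped MatrixGroups
open Cfsg.Agent.Linear.Classes (Nonscalar)

variable {F : Type*} [Field F] [Fintype F]

local notation "M2" => Matrix (Fin 2) (Fin 2) F

/-- A trace forcing odd order in `PSL(2, F)`. -/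
def OddTr (τ : F) : Prop :=
  ((2 : F) = 0 ∧ τ ≠ 0) ∨
    ((2 : F) ≠ 0 ∧ (τ ^ 2 = 4 ∨ (Fintype.card F % 4 = 3 ∧ IsSquare (τ ^ 2 - 4))))

theorem orderOf_mk_dvd_of_scalar {g : SL(2, F)} {n : ℕ} {c : F}
    (h : ((g : M2)) ^ n = c • (1 : M2)) :
    orderOf (QuotientGroup.mk g : ProjectiveSpecialLinearGroup (Fin 2) F) ∣ n := by
  refine orderOf_dvd_of_pow_eq_one ?_
  rw [← QuotientGroup.mk_pow, QuotientGroup.eq_one_iff]
  refine Linear.Classes.mem_center_iff_scalar.2 fun hns => hns c ?_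
  rw [Matrix.SpecialLinearGroup.coe_pow]
  exact h

theorem two_eq_zero_iff : (2 : F) = 0 ↔ ringChar F = 2 := by
  constructor
  · intro h
    exact ((Nat.prime_dvd_prime_iff_eq (CharP.char_is_prime F (ringChar F)) Nat.prime_two).1
      (ringChar.dvd (by simpa using h)))
  · intro h
    have h0 : ((2 : ℕ) : F) = 0 := by rw [ringChar.spec, h]
    simpa using h0

theorem odd_of_sq_eq_four (h2 : (2 : F) ≠ 0) {g : SL(2, F)} (hτ : (g : M2).trace ^ 2 = 4) :
    Odd (orderOf (QuotientGroup.mk g : ProjectiveSpecialLinearGroup (Fin 2) F)) := by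
  set τ := (g : M2).trace with hτdef
  set ε := τ / 2 with hε
  have hεe : τ = 2 * ε := by rw [hε]; field_simp
  have hεs : ε * ε = 1 := by
    have : (2 : F) ^ 2 * (ε * ε) = 2 ^ 2 * 1 := by rw [hεe] at hτ; linear_combination hτ
    exact mul_left_cancel₀ (pow_ne_zero 2 h2) this
  have hN : ((g : M2) - ε • 1) ^ 2 = 0 := by
    rw [sq, sub_mul, mul_sub, mul_sub, Matrix.mul_smul, Matrix.smul_mul, Matrix.mul_one,
      Matrix.one_mul, Linear.Classes.cayley_hamilton g, ← hτdef, Matrix.smul_mul, Matrix.one_mul, smul_smul,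
      hεs, one_smul, hεe, mul_smul, two_smul]
    abel
  set p := ringChar F
  haveI hp : Fact p.Prime := ⟨CharP.char_is_prime F p⟩
  have hp2 : p ≠ 2 := fun e => h2 (two_eq_zero_iff.2 e)
  have hpow : ((g : M2)) ^ p = ε ^ p • (1 : M2) := by
    have h0 : ((g : M2) - ε • 1) ^ p = 0 := by
      obtain ⟨k, hk⟩ : ∃ k, p = 2 + k := ⟨p - 2, by have := hp.out.two_le; omega⟩
      rw [hk, pow_add, hN, zero_mul]
    rw [sub_pow_char_of_commute p ((Commute.one_right _).smul_right ε), smul_pow, one_pow,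
      sub_eq_zero] at h0
    exact h0
  exact Odd.of_dvd_nat (hp.out.odd_of_ne_two hp2) (orderOf_mk_dvd_of_scalar hpow)

theorem odd_of_split (hq : Fintype.card F % 4 = 3) {g : SL(2, F)}
    (hτ : IsSquare ((g : M2).trace ^ 2 - 4)) (hτ4 : (g : M2).trace ^ 2 ≠ 4) :
    Odd (orderOf (QuotientGroup.mk g : ProjectiveSpecialLinearGroup (Fin 2) F)) := by
  classical
  have h2 : (2 : F) ≠ 0 := fun e => by
    have := FiniteField.even_card_iff_char_two.1 (two_eq_zero_iff.1 e)
    omega
  set τ := (g : M2).trace with hτdef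
  obtain ⟨w, hw⟩ := hτ
  have hw0 : w ≠ 0 := fun e => hτ4 (by rw [e, mul_zero, sub_eq_zero] at hw; exact hw)
  set r := (τ + w) / 2 with hr
  set s := (τ - w) / 2 with hs
  have hrs : r * s = 1 := by
    rw [hr, hs]; field_simp; linear_combination hw
  have hsum : r + s = τ := by rw [hr, hs]; field_simp; ring
  have hd : r - s ≠ 0 := by
    intro e
    apply hw0
    rw [hr, hs] at e
    field_simp at e
    have : (2 : F) * w = 0 := by linear_combination e
    exact (mul_eq_zero.1 this).resolve_left h2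
  have hch := Linear.Classes.cayley_hamilton g
  rw [← hτdef, ← hsum, add_smul] at hch
  have h1 : (g : M2) * ((g : M2) - s • 1) = r • ((g : M2) - s • 1) := by
    rw [mul_sub, Matrix.mul_smul, Matrix.mul_one, hch, smul_sub, smul_smul r s, hrs, one_smul]
    abel
  have h1' : (g : M2) * (r • 1 - (g : M2)) = s • (r • 1 - (g : M2)) := by
    rw [mul_sub, Matrix.mul_smul, Matrix.mul_one, hch, smul_sub, smul_smul s r, mul_comm s r, hrs,
      one_smul]
    abel
  obtain ⟨E, hE⟩ : ∃ E : M2, E = (r - s)⁻¹ • ((g : M2) - s • 1) := ⟨_, rfl⟩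
  obtain ⟨E', hE'⟩ : ∃ E : M2, E = (r - s)⁻¹ • (r • 1 - (g : M2)) := ⟨_, rfl⟩
  have hsumE : E + E' = 1 := by
    rw [hE, hE', ← smul_add, show (g : M2) - s • 1 + (r • 1 - (g : M2)) = r • 1 - s • 1 by abel,
      ← sub_smul, smul_smul, inv_mul_cancel₀ hd, one_smul]
  have hgE : (g : M2) * E = r • E := by rw [hE, Matrix.mul_smul, h1, smul_comm]
  have hgE' : (g : M2) * E' = s • E' := by rw [hE', Matrix.mul_smul, h1', smul_comm]
  have hpw : ∀ n : ℕ, ((g : M2)) ^ n = r ^ n • E + s ^ n • E' := by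
    intro n
    induction n with
    | zero => simp [hsumE]
    | succ n ih =>
      rw [pow_succ', ih, Matrix.mul_add, Matrix.mul_smul, Matrix.mul_smul, hgE, hgE', smul_smul,
        smul_smul, ← pow_succ, ← pow_succ]
  have hr0 : r ≠ 0 := left_ne_zero_of_mul_eq_one hrs
  obtain ⟨o, ho⟩ : ∃ o, Fintype.card F = 4 * o + 3 := ⟨Fintype.card F / 4, by omega⟩
  have hr1 : (r ^ (2 * o + 1)) * (r ^ (2 * o + 1)) = 1 := by
    rw [← pow_add]
    have := FiniteField.pow_card_sub_one_eq_one r hr0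
    rwa [ho, show 4 * o + 3 - 1 = 2 * o + 1 + (2 * o + 1) by omega] at this
  have hs1 : s ^ (2 * o + 1) = r ^ (2 * o + 1) := by
    have h1 : r ^ (2 * o + 1) * s ^ (2 * o + 1) = 1 := by rw [← mul_pow, hrs, one_pow]
    exact mul_left_cancel₀ (pow_ne_zero _ hr0) (h1.trans hr1.symm)
  refine Odd.of_dvd_nat ⟨o, rfl⟩ (orderOf_mk_dvd_of_scalar (c := r ^ (2 * o + 1)) ?_)
  rw [hpw, hs1, ← smul_add, hsumE]

theorem center_eq_bot_of_two (h2 : (2 : F) = 0) : Subgroup.center SL(2, F) = ⊥ := by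
  rw [Subgroup.eq_bot_iff_forall]
  intro g hg
  obtain ⟨c, hc, he⟩ := Linear.Classes.scalar_SL (Linear.Classes.mem_center_iff_scalar.1 hg)
  have : (c - 1) * (c - 1) = 0 := by linear_combination hc - (c - 1) * h2
  have hc1 : c = 1 := sub_eq_zero.1 (mul_self_eq_zero.1 this)
  refine Subtype.ext ?_
  rw [he, hc1, one_smul, Matrix.SpecialLinearGroup.coe_one]

theorem odd_of_two (h2 : (2 : F) = 0) {g : SL(2, F)} (hτ : (g : M2).trace ≠ 0) :
    Odd (orderOf (QuotientGroup.mk g : ProjectiveSpecialLinearGroup (Fin 2) F)) := by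
  classical
  refine Odd.of_dvd_nat (Nat.not_even_iff_odd.1 fun he => ?_) (orderOf_map_dvd (QuotientGroup.mk' _) g)
  obtain ⟨k, hk⟩ := he
  have hk0 : 0 < k := by have := orderOf_pos g; omega
  set h := g ^ k with hh
  have hh2 : h * h = 1 := by rw [hh, ← pow_add, ← hk, pow_orderOf_eq_one]
  have hh1 : h ≠ 1 := fun e => by
    have := Nat.le_of_dvd hk0 (orderOf_dvd_of_pow_eq_one e)
    omega
  have hns : Nonscalar (h : M2) := by
    by_contra hn
    have := center_eq_bot_of_two h2 ▸ Linear.Classes.mem_center_iff_scalar.2 hn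
    exact hh1 (Subgroup.mem_bot.1 this)
  have htr : (h : M2).trace = 0 := by
    by_contra hne
    have := Linear.Classes.cayley_hamilton h
    rw [← Matrix.SpecialLinearGroup.coe_mul, hh2, Matrix.SpecialLinearGroup.coe_one] at this
    refine hns ((h : M2).trace⁻¹ * 2) ?_
    rw [mul_smul, two_smul]
    calc (h : M2) = (h : M2).trace⁻¹ • ((h : M2).trace • (h : M2)) := by
          rw [smul_smul, inv_mul_cancel₀ hne, one_smul]
      _ = _ := by rw [eq_sub_iff_add_eq] at this; rw [← this]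
  have hcomm : (h : M2) * (g : M2) = (g : M2) * (h : M2) := by
    rw [← Matrix.SpecialLinearGroup.coe_mul, ← Matrix.SpecialLinearGroup.coe_mul, hh, ← pow_succ,
      ← pow_succ']
  obtain ⟨a, b, hab⟩ := (Linear.Classes.commute_iff hns).1 hcomm
  apply hτ
  rw [hab, Matrix.trace_add, Matrix.trace_smul, Matrix.trace_smul, htr, Matrix.trace_one,
    Fintype.card_fin, smul_zero, add_zero, smul_eq_mul, Nat.cast_ofNat, h2, mul_zero]

theorem odd_of_oddTr {g : SL(2, F)} (h : OddTr (g : M2).trace) :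
    Odd (orderOf (QuotientGroup.mk g : ProjectiveSpecialLinearGroup (Fin 2) F)) := by
  rcases h with ⟨h2, h0⟩ | ⟨h2, h⟩
  · exact odd_of_two h2 h0
  · by_cases h4 : (g : M2).trace ^ 2 = 4
    · exact odd_of_sq_eq_four h2 h4
    · obtain ⟨hq, hs⟩ := h.resolve_left h4
      exact odd_of_split hq hs h4

end Cfsg.Agent.OddGraph
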