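import Cfsg.Agent.OddGraph.PSLTwoGraph

/-!
Involutions of `PSL(2, q)` as images of elements of trace zero.
-/

set_option autoImplicit false
set_option linter.unusedSectionVars false

namespace Cfsg.Agent.OddGraph

open Matrix Finset
open scoped MatrixGroups
open Cfsg.Agent.Linear.Classes (Nonscalar)

variable {F : Type*} [Field F] [Fintype F]

local notation "M2" => Matrix (Fin 2) (Fin 2) F
local notation "PSL2" => ProjectiveSpecialLinearGroup (Fin 2) F

theorem mk_eq_one_iff {g : SL(2, F)} : (QuotientGroup.mk g : PSL2) = 1 ↔ ¬ Nonscalar (g : M2) := by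
  rw [QuotientGroup.eq_one_iff]
  exact Linear.Classes.mem_center_iff_scalar

theorem trace_zero_of_orderOf_two {g : SL(2, F)} (h : orderOf (QuotientGroup.mk g : PSL2) = 2) :
    (g : M2).trace = 0 ∧ Nonscalar (g : M2) := by
  have hns : Nonscalar (g : M2) := by
    by_contra hn
    rw [mk_eq_one_iff.2 hn, orderOf_one] at h
    exact absurd h (by norm_num)
  have h2 : (QuotientGroup.mk (g * g) : PSL2) = 1 := by
    have := pow_orderOf_eq_one (QuotientGroup.mk g : PSL2)
    rw [h, sq] at this
    exact this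
  obtain ⟨c, -, hc⟩ := Linear.Classes.scalar_SL (mk_eq_one_iff.1 h2)
  rw [Matrix.SpecialLinearGroup.coe_mul, Linear.Classes.cayley_hamilton, sub_eq_iff_eq_add] at hc
  refine ⟨?_, hns⟩
  by_contra hne
  refine hns ((g : M2).trace⁻¹ * (c + 1)) ?_
  rw [mul_smul, add_smul, one_smul, ← hc, smul_smul, inv_mul_cancel₀ hne, one_smul]

theorem orderOf_two_of_trace_zero {g : SL(2, F)} (h : (g : M2).trace = 0)
    (hns : Nonscalar (g : M2)) : orderOf (QuotientGroup.mk g : PSL2) = 2 := by
  refine orderOf_eq_prime ?_ fun e => (mk_eq_one_iff.1 e) hns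
  rw [sq, ← QuotientGroup.mk_mul, mk_eq_one_iff]
  intro hn
  refine hn (-1) ?_
  rw [Matrix.SpecialLinearGroup.coe_mul, sq_of_trace_zero h, neg_smul, one_smul]

theorem isConj_mk {g h : SL(2, F)} (hg : (g : M2).trace = 0) (hgn : Nonscalar (g : M2))
    (hh : (h : M2).trace = 0) (hhn : Nonscalar (h : M2)) :
    IsConj (QuotientGroup.mk g : PSL2) (QuotientGroup.mk h) := by
  refine (QuotientGroup.mk' _).map_isConj
    (Linear.Classes.isConj_SL_of_trace hgn hhn (hg.trans hh.symm) ?_)
  by_cases h2 : (2 : F) = 0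
  · exact Or.inl h2
  · refine Or.inr ?_
    rw [hg, mul_one, show (4 : F) = 2 * 2 by norm_num, zero_pow two_ne_zero]
    exact fun e => h2 (mul_self_eq_zero.1 e.symm)

theorem exists_commuting_pair (hF : 4 ≤ Fintype.card F) :
    ∃ A B : SL(2, F), (A : M2).trace = 0 ∧ Nonscalar (A : M2) ∧ (B : M2).trace = 0 ∧
      Nonscalar (B : M2) ∧ ((A * B : SL(2, F)) : M2).trace = 0 ∧
      Nonscalar ((A * B : SL(2, F)) : M2) := by
  classical
  by_cases h2 : (2 : F) = 0
  · obtain ⟨c, hc0, hc1⟩ : ∃ c : F, c ≠ 0 ∧ c ≠ 1 := by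
      by_contra hno
      push Not at hno
      have hsub : (Finset.univ : Finset F) ⊆ {0, 1} := by
        intro z _
        simp only [Finset.mem_insert, Finset.mem_singleton]
        by_cases hz : z = 0
        · exact Or.inl hz
        · exact Or.inr (hno z hz)
      have h := (Finset.card_le_card hsub).trans Finset.card_le_two
      rw [Finset.card_univ] at h
      omega
    have hn : ∀ u : F, u ≠ 0 → Nonscalar (!![(1 : F), u; 0, 1]) := fun u hu c h => by
      have := congrFun (congrFun h 0) 1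
      simp at this
      exact hu this
    have hd : ∀ u : F, (!![(1 : F), u; 0, 1]).det = 1 := fun u => by simp [Matrix.det_fin_two]
    have ht : ∀ u : F, (!![(1 : F), u; 0, 1]).trace = 0 := fun u => by
      simp [Matrix.trace_fin_two]
      linear_combination h2
    have hm : (!![(1 : F), 1; 0, 1]) * !![(1 : F), c; 0, 1] = !![(1 : F), c + 1; 0, 1] := by
      simp [Matrix.mul_fin_two]
    refine ⟨⟨_, hd 1⟩, ⟨_, hd c⟩, ht 1, hn 1 one_ne_zero, ht c, hn c hc0, ?_, ?_⟩
    · show ((!![(1 : F), 1; 0, 1]) * !![(1 : F), c; 0, 1]).trace = 0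
      rw [hm]
      exact ht _
    · show Nonscalar ((!![(1 : F), 1; 0, 1]) * !![(1 : F), c; 0, 1])
      rw [hm]
      exact hn _ fun e => hc1 (by linear_combination e - h2)
  · have hns : ∀ g : SL(2, F), (g : M2).trace = 0 → Nonscalar (g : M2) := by
      intro g hg c hc
      rw [hc, Matrix.trace_smul, Matrix.trace_one, Fintype.card_fin, smul_eq_mul] at hg
      have hc0 : c = 0 := (mul_eq_zero.1 hg).resolve_right (by simpa using h2)
      have := g.det_coe
      rw [hc, hc0, zero_smul, Matrix.det_zero] at this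
      exact zero_ne_one this
    obtain ⟨⟨a, b⟩, hab⟩ := Linear.Classes.exists_normForm_eq (t := (0 : F)) (d := 1) (Or.inr
      (by rw [mul_one, show (4 : F) = 2 * 2 by norm_num, zero_pow two_ne_zero]
          exact fun e => h2 (mul_self_eq_zero.1 e.symm))) (-1)
    simp only [Linear.Classes.normForm] at hab
    let A : SL(2, F) := ⟨!![(0 : F), 1; -1, 0], by simp [Matrix.det_fin_two]⟩
    let B : SL(2, F) := ⟨!![a, b; b, -a], by
      simp [Matrix.det_fin_two]
      linear_combination -hab⟩
    have tA : (A : M2).trace = 0 := by simp [A, Matrix.trace_fin_two]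
    have tB : (B : M2).trace = 0 := by simp [B, Matrix.trace_fin_two]
    have tAB : ((A * B : SL(2, F)) : M2).trace = 0 := by
      show ((!![(0 : F), 1; -1, 0]) * !![a, b; b, -a]).trace = 0
      simp [Matrix.trace_fin_two]
    exact ⟨A, B, tA, hns A tA, tB, hns B tB, tAB, hns _ tAB⟩

/-- The odd product graph on an involution class of `PSL(2, q)`. -/
theorem psl_two_diam_two (hF : 4 ≤ Fintype.card F) (t : PSL2) (ht : orderOf t = 2) :
    (SimpleGraph.fromRel fun x y : {x : PSL2 // IsConj t x} =>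
        Odd (orderOf (x.1 * y.1))).Connected ∧
      (SimpleGraph.fromRel fun x y : {x : PSL2 // IsConj t x} =>
        Odd (orderOf (x.1 * y.1))).diam = 2 := by
  obtain ⟨T, rfl⟩ := QuotientGroup.mk_surjective t
  obtain ⟨hT, hTn⟩ := trace_zero_of_orderOf_two ht
  have hcls : ∀ g : SL(2, F), (g : M2).trace = 0 → Nonscalar (g : M2) →
      IsConj (QuotientGroup.mk T : PSL2) (QuotientGroup.mk g) := fun g h1 h2 => isConj_mk hT hTn h1 h2
  have hlift : ∀ x : PSL2, IsConj (QuotientGroup.mk T : PSL2) x →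
      ∃ g : SL(2, F), (QuotientGroup.mk g : PSL2) = x ∧ (g : M2).trace = 0 ∧ Nonscalar (g : M2) := by
    intro x hx
    obtain ⟨g, rfl⟩ := QuotientGroup.mk_surjective x
    obtain ⟨c, hc⟩ := isConj_iff.1 hx
    refine ⟨g, rfl, trace_zero_of_orderOf_two ?_⟩
    rw [← hc, ← MulAut.conj_apply, MulEquiv.orderOf_eq]
    exact ht
  refine connected_diam_two ?_ ?_
  · intro x y hx hy hodd
    obtain ⟨A, rfl, hA, hAn⟩ := hlift x hx
    obtain ⟨B, rfl, hB, hBn⟩ := hlift y hy
    have hAB : ¬ OddTr ((A : M2) * (B : M2)).trace := by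
      intro h
      apply hodd
      rw [← QuotientGroup.mk_mul]
      exact odd_of_oddTr (by rw [Matrix.SpecialLinearGroup.coe_mul]; exact h)
    obtain ⟨C, hC, hCn, h1, h2⟩ := exists_common hF hA hB hAn hBn hAB
    refine ⟨QuotientGroup.mk C, hcls C hC hCn, ?_, ?_⟩
    · rw [← QuotientGroup.mk_mul]
      exact odd_of_oddTr (by rw [Matrix.SpecialLinearGroup.coe_mul]; exact h1)
    · rw [← QuotientGroup.mk_mul]
      exact odd_of_oddTr (by rw [Matrix.SpecialLinearGroup.coe_mul]; exact h2)
  · obtain ⟨A, B, tA, nA, tB, nB, tAB, nAB⟩ := exists_commuting_pair hF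
    have h2 := orderOf_two_of_trace_zero tAB nAB
    rw [QuotientGroup.mk_mul] at h2
    refine ⟨QuotientGroup.mk A, QuotientGroup.mk B, hcls A tA nA, hcls B tB nB, fun e => ?_, ?_⟩
    · have hA2 := pow_orderOf_eq_one (QuotientGroup.mk A : PSL2)
      rw [orderOf_two_of_trace_zero tA nA, sq] at hA2
      rw [← e, hA2, orderOf_one] at h2
      exact absurd h2 (by norm_num)
    · rw [h2]; decide

end Cfsg.Agent.OddGraph
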