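import Cfsg.Agent.OddGraph.PSLTwo
import Cfsg.Agent.OddGraph.Graph

/-!
The involutions of `PSL(2, q)`: any two have a common neighbour in the odd product graph.
-/

set_option autoImplicit false
set_option linter.unusedSectionVars false

namespace Cfsg.Agent.OddGraph

open Matrix Finset
open scoped MatrixGroups
open Cfsg.Agent.Linear.Classes (Nonscalar)

variable {F : Type*} [Field F] [Fintype F]

local notation "M2" => Matrix (Fin 2) (Fin 2) F

theorem sq_of_trace_zero {g : SL(2, F)} (h : (g : M2).trace = 0) : (g : M2) * (g : M2) = -1 := by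
  rw [Linear.Classes.cayley_hamilton, h, zero_smul, zero_sub]

/-- A third matrix with prescribed traces against two given ones. -/
theorem exists_third (h2 : (2 : F) ≠ 0) {A B : SL(2, F)} (hA : (A : M2).trace = 0)
    (hB : (B : M2).trace = 0) {t : F} (ht : ((A : M2) * (B : M2)).trace = -2 * t) {α x y : F}
    (hQ : α ^ 2 + (1 - t ^ 2) * (x ^ 2 + y ^ 2) = 1) :
    ∃ C : SL(2, F), (C : M2).trace = 0 ∧ ((A : M2) * (C : M2)).trace = -2 * α ∧
      ((C : M2) * (B : M2)).trace = -2 * (α * t + (1 - t ^ 2) * x) := by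
  have hAA := sq_of_trace_zero hA
  have hBB := sq_of_trace_zero hB
  set a := (A : M2)
  set b := (B : M2)
  set C : M2 := α • a + x • (b - t • a) + y • (a * b + t • (1 : M2)) with hCdef
  have t1 : (1 : M2).trace = 2 := by rw [Matrix.trace_one, Fintype.card_fin]; norm_num
  have tAA : (a * a).trace = -2 := by rw [hAA, Matrix.trace_neg, t1]
  have tBB : (b * b).trace = -2 := by rw [hBB, Matrix.trace_neg, t1]
  have tBA : (b * a).trace = -2 * t := by rw [Matrix.trace_mul_comm, ht]
  have tAAB : (a * (a * b)).trace = 0 := by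
    rw [← Matrix.mul_assoc, hAA, neg_mul, one_mul, Matrix.trace_neg, hB, neg_zero]
  have tABA : (a * b * a).trace = 0 := by
    rw [Matrix.trace_mul_comm, tAAB]
  have tBAB : (b * (a * b)).trace = 0 := by
    rw [Matrix.trace_mul_comm, Matrix.mul_assoc, hBB, mul_neg, mul_one, Matrix.trace_neg, hA, neg_zero]
  have tABB : (a * b * b).trace = 0 := by
    rw [Matrix.mul_assoc, hBB, mul_neg, mul_one, Matrix.trace_neg, hA, neg_zero]
  have tABAB : (a * b * (a * b)).trace = 4 * t ^ 2 - 2 := by
    have hch := Linear.Classes.cayley_hamilton (A * B)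
    simp only [Matrix.SpecialLinearGroup.coe_mul] at hch
    rw [hch, Matrix.trace_sub, Matrix.trace_smul, ht, t1, smul_eq_mul]
    ring
  have hC0 : C.trace = 0 := by
    simp only [hCdef, Matrix.trace_add, Matrix.trace_sub, Matrix.trace_smul, hA, hB, ht, t1,
      smul_eq_mul]
    ring
  have hAC : (a * C).trace = -2 * α := by
    simp only [hCdef, Matrix.mul_add, Matrix.mul_sub, Matrix.mul_smul, Matrix.mul_one,
      Matrix.trace_add, Matrix.trace_sub, Matrix.trace_smul, tAA, ht, tAAB, hA, smul_eq_mul]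
    ring
  have hCB : (C * b).trace = -2 * (α * t + (1 - t ^ 2) * x) := by
    simp only [hCdef, Matrix.add_mul, Matrix.sub_mul, Matrix.smul_mul, Matrix.one_mul,
      Matrix.trace_add, Matrix.trace_sub, Matrix.trace_smul, tBB, ht, tABB, hB, smul_eq_mul]
    ring
  have hCC : (C * C).trace = -2 := by
    simp only [hCdef, Matrix.add_mul, Matrix.sub_mul, Matrix.mul_add, Matrix.mul_sub, Matrix.smul_mul,
      Matrix.mul_smul, Matrix.one_mul, Matrix.mul_one, smul_add, smul_sub, smul_smul,
      Matrix.trace_add, Matrix.trace_sub, Matrix.trace_smul, tAA, tBB, tBA, ht, tAAB, tABA, tBAB,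
      tABB, tABAB, t1, hA, hB, smul_eq_mul]
    linear_combination (-2 : F) * hQ
  have hdet : C.det = 1 := by
    have e := hCC
    have e0 := hC0
    simp only [Matrix.trace_fin_two, Matrix.mul_apply, Fin.sum_univ_two] at e e0
    rw [Matrix.det_fin_two]
    refine mul_left_cancel₀ h2 ?_
    linear_combination -e + (C 0 0 + C 1 1) * e0
  exact ⟨⟨C, hdet⟩, hC0, hAC, hCB⟩

theorem count_square_sub_one (h2 : (2 : F) ≠ 0) :
    Fintype.card F + 1 ≤ 2 * (Set.ncard {β : F | IsSquare (β ^ 2 - 1)}) := by
  classical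
  let φ : F → F := fun v => (v + v⁻¹) / 2
  set D : Finset F := ((Finset.univ.erase 0).erase 1).erase (-1)
  have hne : (-1 : F) ≠ 1 := fun e => h2 (by linear_combination -e)
  have hD : D.card + 3 = Fintype.card F := by
    have hq : 0 < Fintype.card F := Fintype.card_pos
    have h1 : (1 : F) ∈ Finset.univ.erase (0 : F) := Finset.mem_erase.2 ⟨one_ne_zero, Finset.mem_univ _⟩
    have h3 : (-1 : F) ∈ (Finset.univ.erase (0 : F)).erase 1 :=
      Finset.mem_erase.2 ⟨hne, Finset.mem_erase.2 ⟨neg_ne_zero.2 one_ne_zero, Finset.mem_univ _⟩⟩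
    have e1 := Finset.card_erase_add_one h3
    have e2 := Finset.card_erase_add_one h1
    have e3 := Finset.card_erase_add_one (Finset.mem_univ (0 : F))
    rw [Finset.card_univ] at e3
    simp only [D]
    omega
  have hfib : D.card ≤ 2 * (D.image φ).card := by
    refine Finset.card_le_mul_card_image _ 2 fun β hβ => ?_
    obtain ⟨v, hv, rfl⟩ := Finset.mem_image.1 hβ
    refine le_trans (Finset.card_le_card (t := {v, v⁻¹}) fun u hu => ?_) Finset.card_le_two
    obtain ⟨hu', he⟩ := Finset.mem_filter.1 hu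
    have hu0 : u ≠ 0 := by simp [D] at hu'; tauto
    have hv0 : v ≠ 0 := by simp [D] at hv; tauto
    have hfac : (u - v) * (u * v - 1) = 0 := by
      simp only [φ] at he
      field_simp at he
      linear_combination he
    rw [Finset.mem_insert, Finset.mem_singleton]
    rcases mul_eq_zero.1 hfac with h | h
    · exact Or.inl (sub_eq_zero.1 h)
    · exact Or.inr (eq_inv_of_mul_eq_one_left (sub_eq_zero.1 h))
  have hnot : ∀ v ∈ D, φ v ≠ 1 ∧ φ v ≠ -1 := by
    intro v hv
    simp [D] at hv
    obtain ⟨hv1, hv2, hv0⟩ := hv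
    constructor <;> intro e <;> simp only [φ] at e <;> field_simp at e
    · exact hv2 (sub_eq_zero.1 (mul_self_eq_zero.1 (show (v - 1) * (v - 1) = 0 by linear_combination e)))
    · exact hv1 (eq_neg_of_add_eq_zero_left (mul_self_eq_zero.1
        (show (v + 1) * (v + 1) = 0 by linear_combination e)))
  have hsub : insert 1 (insert (-1) (D.image φ)) ⊆
      (Finset.univ.filter fun β : F => IsSquare (β ^ 2 - 1)) := by
    intro β hβ
    refine Finset.mem_filter.2 ⟨Finset.mem_univ _, ?_⟩
    rcases Finset.mem_insert.1 hβ with rfl | hβ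
    · exact ⟨0, by ring⟩
    rcases Finset.mem_insert.1 hβ with rfl | hβ
    · exact ⟨0, by ring⟩
    obtain ⟨v, hv, rfl⟩ := Finset.mem_image.1 hβ
    have hv0 : v ≠ 0 := by simp [D] at hv; tauto
    exact ⟨(v - v⁻¹) / 2, by simp only [φ]; field_simp; ring⟩
  have hc := Finset.card_le_card hsub
  rw [Finset.card_insert_of_notMem, Finset.card_insert_of_notMem] at hc
  · rw [Set.ncard_eq_toFinset_card', Set.toFinset_setOf]
    omega
  · intro h
    obtain ⟨v, hv, e⟩ := Finset.mem_image.1 h
    exact (hnot v hv).2 e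
  · intro h
    rcases Finset.mem_insert.1 h with e | h
    · exact hne e.symm
    · obtain ⟨v, hv, e⟩ := Finset.mem_image.1 h
      exact (hnot v hv).1 e

theorem count_sub_square (hq : Fintype.card F % 4 = 3) {c : F} (hc : ¬ IsSquare c) :
    Fintype.card F + 1 ≤ 2 * (Set.ncard {x : F | IsSquare (c - x ^ 2)}) := by
  classical
  have h2 : (2 : F) ≠ 0 := fun e => by
    have := FiniteField.even_card_iff_char_two.1 (two_eq_zero_iff.1 e)
    omega
  have hc0 : c ≠ 0 := fun e => hc (e ▸ IsSquare.zero)
  have hneg : ¬ IsSquare (-1 : F) := fun h => FiniteField.isSquare_neg_one_iff.1 h hq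
  have hF : ringChar F ≠ 2 := fun e => h2 (two_eq_zero_iff.2 e)
  let φ : F → F := fun v => (v + c / v) / 2
  set D : Finset F := Finset.univ.erase 0
  have hsub : (Finset.univ.filter fun x : F => ¬ IsSquare (c - x ^ 2)) ⊆ D.image φ := by
    intro x hx
    obtain ⟨-, hx⟩ := Finset.mem_filter.1 hx
    obtain ⟨s, hs⟩ : IsSquare (x ^ 2 - c) := by
      rw [show x ^ 2 - c = -1 * (c - x ^ 2) by ring]
      exact Linear.Classes.isSquare_mul_of_nonsquare h2 hneg hx
    have hv : x + s ≠ 0 := fun e => hc0 (by linear_combination (-1 : F) * hs + (x - s) * e)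
    refine Finset.mem_image.2 ⟨x + s, Finset.mem_erase.2 ⟨hv, Finset.mem_univ _⟩, ?_⟩
    simp only [φ]
    field_simp
    linear_combination (-1 : F) * hs
  have himg : 2 * (D.image φ).card ≤ D.card := by
    refine Finset.mul_card_image_le_card _ 2 fun x hx => ?_
    obtain ⟨v, hv, rfl⟩ := Finset.mem_image.1 hx
    have hv0 := (Finset.mem_erase.1 hv).1
    have hne : v ≠ c / v := fun e => hc ⟨v, by field_simp at e; linear_combination -e⟩
    refine le_of_eq_of_le (Finset.card_pair hne).symm (Finset.card_le_card fun u hu => ?_)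
    rcases Finset.mem_insert.1 hu with rfl | hu
    · exact Finset.mem_filter.2 ⟨hv, rfl⟩
    · rw [Finset.mem_singleton] at hu
      subst hu
      refine Finset.mem_filter.2 ⟨Finset.mem_erase.2 ⟨div_ne_zero hc0 hv0, Finset.mem_univ _⟩, ?_⟩
      simp only [φ]
      field_simp
      ring
  have h1 := Finset.card_le_card hsub
  have h3 := Finset.card_filter_add_card_filter_not (s := (Finset.univ : Finset F))
    (fun x : F => IsSquare (c - x ^ 2))
  rw [Set.ncard_eq_toFinset_card', Set.toFinset_setOf]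
  rw [Finset.card_erase_of_mem (Finset.mem_univ _), Finset.card_univ] at himg
  rw [Finset.card_univ] at h3
  omega

theorem exists_common (hF : 4 ≤ Fintype.card F) {A B : SL(2, F)} (hA : (A : M2).trace = 0) (hB : (B : M2).trace = 0)
    (hAn : Nonscalar (A : M2)) (hBn : Nonscalar (B : M2))
    (hAB : ¬ OddTr ((A : M2) * (B : M2)).trace) :
    ∃ C : SL(2, F), (C : M2).trace = 0 ∧ Nonscalar (C : M2) ∧
      OddTr ((A : M2) * (C : M2)).trace ∧ OddTr ((C : M2) * (B : M2)).trace := by
  classical
  by_cases h2 : (2 : F) = 0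
  · have hd : ∀ g : SL(2, F), (g : M2).trace = 0 → Nonscalar (g : M2) →
        (g : M2) 1 1 = (g : M2) 0 0 ∧ ((g : M2) 0 1 ≠ 0 ∨ (g : M2) 1 0 ≠ 0) := by
      intro g hg hns
      have h11 : (g : M2) 1 1 = (g : M2) 0 0 := by
        rw [Matrix.trace_fin_two] at hg
        linear_combination hg - (g : M2) 0 0 * h2
      refine ⟨h11, ?_⟩
      by_contra hne
      push Not at hne
      refine hns ((g : M2) 0 0) ?_
      ext i j
      fin_cases i <;> fin_cases j <;> simp [hne.1, hne.2, h11]
    obtain ⟨a11, ha⟩ := hd A hA hAn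
    obtain ⟨b11, hb⟩ := hd B hB hBn
    have key : ∀ (M : M2) (hM : M.det = 1), M.trace = 0 → Nonscalar M →
        ((A : M2) * M).trace ≠ 0 → (M * (B : M2)).trace ≠ 0 →
        ∃ C : SL(2, F), (C : M2).trace = 0 ∧ Nonscalar (C : M2) ∧
          OddTr ((A : M2) * (C : M2)).trace ∧ OddTr ((C : M2) * (B : M2)).trace :=
      fun M hM h1 h3 h4 h5 => ⟨⟨M, hM⟩, h1, h3, Or.inl ⟨h2, h4⟩, Or.inl ⟨h2, h5⟩⟩
    have h00 : ∀ z : F, z + z = 0 := fun z => by linear_combination z * h2
    have htr1 : ∀ (M : M2), M = !![(1 : F), 1; 0, 1] →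
        ((A : M2) * M).trace = (A : M2) 1 0 ∧ (M * (B : M2)).trace = (B : M2) 1 0 := by
      rintro M rfl
      constructor
      · simp only [Matrix.trace_fin_two, Matrix.mul_apply, Fin.sum_univ_two, a11]
        simp
        linear_combination (A : M2) 0 0 * h2
      · simp only [Matrix.trace_fin_two, Matrix.mul_apply, Fin.sum_univ_two, b11]
        simp
        linear_combination (B : M2) 0 0 * h2
    have htr2 : ∀ (M : M2), M = !![(1 : F), 0; 1, 1] →
        ((A : M2) * M).trace = (A : M2) 0 1 ∧ (M * (B : M2)).trace = (B : M2) 0 1 := by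
      rintro M rfl
      constructor
      · simp only [Matrix.trace_fin_two, Matrix.mul_apply, Fin.sum_univ_two, a11]
        simp
        linear_combination (A : M2) 0 0 * h2
      · simp only [Matrix.trace_fin_two, Matrix.mul_apply, Fin.sum_univ_two, b11]
        simp
        linear_combination (B : M2) 0 0 * h2
    have hns1 : Nonscalar (!![(1 : F), 1; 0, 1]) := fun c h => by
      have := congrFun (congrFun h 0) 1
      simp at this
    have hns2 : Nonscalar (!![(1 : F), 0; 1, 1]) := fun c h => by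
      have := congrFun (congrFun h 1) 0
      simp at this
    by_cases hc1 : (A : M2) 1 0 ≠ 0 ∧ (B : M2) 1 0 ≠ 0
    · refine key _ (by simp [Matrix.det_fin_two]) ?_ hns1 ?_ ?_
      · simp [Matrix.trace_fin_two, h00]
      · rw [(htr1 _ rfl).1]; exact hc1.1
      · rw [(htr1 _ rfl).2]; exact hc1.2
    by_cases hc2 : (A : M2) 0 1 ≠ 0 ∧ (B : M2) 0 1 ≠ 0
    · refine key _ (by simp [Matrix.det_fin_two]) ?_ hns2 ?_ ?_
      · simp [Matrix.trace_fin_two, h00]
      · rw [(htr2 _ rfl).1]; exact hc2.1
      · rw [(htr2 _ rfl).2]; exact hc2.2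
    have hsum : ((A : M2) 1 0 + (A : M2) 0 1 ≠ 0) ∧ ((B : M2) 1 0 + (B : M2) 0 1 ≠ 0) := by
      by_cases a1 : (A : M2) 1 0 = 0 <;> by_cases a2 : (A : M2) 0 1 = 0 <;>
        by_cases b1 : (B : M2) 1 0 = 0 <;> by_cases b2 : (B : M2) 0 1 = 0 <;> simp_all
    refine key !![(1 + 1 : F), 1; 1, 1 - 1] (by simp [Matrix.det_fin_two]; linear_combination -h2) ?_ ?_ ?_ ?_
    · simp [Matrix.trace_fin_two, h00]
    · intro c h
      have := congrFun (congrFun h 0) 1
      simp at this
    · simp only [Matrix.trace_fin_two, Matrix.mul_apply, Fin.sum_univ_two, a11]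
      simp
      intro e
      exact hsum.1 (by linear_combination e - (A : M2) 0 0 * h2)
    · simp only [Matrix.trace_fin_two, Matrix.mul_apply, Fin.sum_univ_two, b11]
      simp
      intro e
      exact hsum.2 (by linear_combination e - (B : M2) 0 0 * h2)
  · have hns : ∀ g : SL(2, F), (g : M2).trace = 0 → Nonscalar (g : M2) := by
      intro g hg c hc
      rw [hc, Matrix.trace_smul, Matrix.trace_one, Fintype.card_fin, smul_eq_mul] at hg
      have hc0 : c = 0 := (mul_eq_zero.1 hg).resolve_right (by simpa using h2)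
      have := g.det_coe
      rw [hc, hc0, zero_smul, Matrix.det_zero] at this
      exact zero_ne_one this
    set t := -((A : M2) * (B : M2)).trace / 2 with ht
    have htr : ((A : M2) * (B : M2)).trace = -2 * t := by rw [ht]; field_simp
    have hodd : ∀ β : F, OddTr (-2 * β) ↔ (β ^ 2 = 1 ∨
        (Fintype.card F % 4 = 3 ∧ IsSquare (β ^ 2 - 1))) := by
      intro β
      have e : (-2 * β) ^ 2 - 4 = 2 ^ 2 * (β ^ 2 - 1) := by ring
      constructor
      · rintro (⟨h, -⟩ | ⟨-, h | ⟨h, h'⟩⟩)
        · exact absurd h h2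
        · left
          refine mul_left_cancel₀ (pow_ne_zero 2 h2) ?_
          linear_combination h
        · right
          refine ⟨h, ?_⟩
          rw [e] at h'
          obtain ⟨w, hw⟩ := h'
          exact ⟨w / 2, by field_simp; linear_combination hw⟩
      · rintro (h | ⟨h, h'⟩)
        · exact Or.inr ⟨h2, Or.inl (by linear_combination (4 : F) * h)⟩
        · refine Or.inr ⟨h2, Or.inr ⟨h, ?_⟩⟩
          rw [e]
          exact IsSquare.mul ⟨2, sq 2⟩ h'
    rw [htr, hodd] at hAB
    push Not at hAB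
    obtain ⟨ht1, ht3⟩ := hAB
    have hu : 1 - t ^ 2 ≠ 0 := fun e => ht1 (by linear_combination -e)
    have finish : ∀ α x y : F, α ^ 2 + (1 - t ^ 2) * (x ^ 2 + y ^ 2) = 1 →
        OddTr (-2 * α) → OddTr (-2 * (α * t + (1 - t ^ 2) * x)) →
        ∃ C : SL(2, F), (C : M2).trace = 0 ∧ Nonscalar (C : M2) ∧
          OddTr ((A : M2) * (C : M2)).trace ∧ OddTr ((C : M2) * (B : M2)).trace := by
      intro α x y hQ h1 h3
      obtain ⟨C, hC, e1, e2⟩ := exists_third h2 hA hB htr hQ
      exact ⟨C, hC, hns C hC, e1 ▸ h1, e2 ▸ h3⟩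
    by_cases hq : Fintype.card F % 4 = 3
    swap
    · obtain ⟨i, hi⟩ : IsSquare (-1 : F) := FiniteField.isSquare_neg_one_iff.2 hq
      refine finish 1 ((1 - t) / (1 - t ^ 2)) (i * ((1 - t) / (1 - t ^ 2))) ?_ ?_ ?_
      · rw [mul_pow, show i ^ 2 = -1 by rw [sq, ← hi]]
        ring
      · exact (hodd 1).2 (Or.inl (one_pow 2))
      · refine (hodd _).2 (Or.inl ?_)
        field_simp
        ring
    have ht4 : ¬ IsSquare (t ^ 2 - 1) := ht3 hq
    have hneg : ¬ IsSquare (-1 : F) := fun h => FiniteField.isSquare_neg_one_iff.1 h hq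
    obtain ⟨s, hs0, hs1⟩ : ∃ s : F, s ≠ 0 ∧ s ^ 2 ≠ 1 := by
      by_contra hno
      push Not at hno
      have hsub : (Finset.univ : Finset F) ⊆ {0, 1, -1} := by
        intro z _
        simp only [Finset.mem_insert, Finset.mem_singleton]
        by_cases hz : z = 0
        · exact Or.inl hz
        · exact Or.inr (sq_eq_one_iff.1 (hno z hz))
      have h := (Finset.card_le_card hsub).trans Finset.card_le_three
      rw [Finset.card_univ] at h
      omega
    set α := (s + s⁻¹) / 2 with hα
    set w := (s - s⁻¹) / 2 with hw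
    have hαw : α ^ 2 - 1 = w * w := by rw [hα, hw]; field_simp; ring
    have hw0 : w ≠ 0 := by
      intro e
      apply hs1
      rw [hw] at e
      field_simp at e
      linear_combination e
    set u := 1 - t ^ 2 with hu'
    set c := (1 - α ^ 2) / u with hcdef
    have hc : ¬ IsSquare c := by
      rintro ⟨r, hr⟩
      apply ht4
      have hr0 : r ≠ 0 := by
        rintro rfl
        rw [hcdef] at hr
        field_simp at hr
        exact hw0 (mul_self_eq_zero.1 (by linear_combination -hr - hαw))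
      refine ⟨w / r, ?_⟩
      rw [hcdef] at hr
      field_simp at hr ⊢
      linear_combination hr + hαw
    have hX := count_sub_square hq hc
    have hS := count_square_sub_one h2
    obtain ⟨x, hx1, hx2⟩ : ∃ x : F, IsSquare (c - x ^ 2) ∧ IsSquare ((α * t + u * x) ^ 2 - 1) := by
      by_contra hno
      push Not at hno
      have hinj : Function.Injective fun x : F => α * t + u * x :=
        fun x x' e => mul_left_cancel₀ hu (add_left_cancel e)
      have hd : Disjoint ((fun x : F => α * t + u * x) '' {x : F | IsSquare (c - x ^ 2)})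
          {β : F | IsSquare (β ^ 2 - 1)} := by
        rw [Set.disjoint_left]
        rintro _ ⟨x, hx, rfl⟩ hβ
        exact hno x hx hβ
      have h1 := Set.ncard_union_eq hd
      have h3 := Set.ncard_le_card (α := F)
        ((fun x : F => α * t + u * x) '' {x : F | IsSquare (c - x ^ 2)} ∪ {β : F | IsSquare (β ^ 2 - 1)})
      rw [h1, Set.ncard_image_of_injective _ hinj, Nat.card_eq_fintype_card] at h3
      omega
    obtain ⟨y, hy⟩ := hx1
    refine finish α x y ?_ ((hodd α).2 (Or.inr ⟨hq, ⟨w, hαw⟩⟩))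
      ((hodd _).2 (Or.inr ⟨hq, hx2⟩))
    have : u * c = 1 - α ^ 2 := by rw [hcdef]; field_simp
    linear_combination this - u * hy

end Cfsg.Agent.OddGraph
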