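import Cfsg.Agent.OddGraph.PermGadgets
import Cfsg.Agent.OddGraph.Graph

/-!
Any two involutory permutations of the same support size have a common odd neighbour, unless they
form an isolated alternating four cycle.
-/

set_option autoImplicit false
set_option linter.unusedSectionVars false

namespace Cfsg.Agent.OddGraph

open Equiv Equiv.Perm

variable {α : Type*} [Fintype α] [DecidableEq α]

theorem agree_of_peel {x u : Perm α} (hu : u * u = 1) (hag : ∀ p, u p ≠ p → x p = u p) :
    ∀ p ∈ (x * u).support, x p = (x * u) p := fun p hp => (peel_mem hu hag hp).2.2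

/-- Four points of an alternating four cycle. -/
theorem c4_points {x y : Perm α} (hx : x * x = 1) (hy : y * y = 1) (h : HasC4 x y) :
    ∃ e : Fin 4 ↪ α, (∀ i, x (e i) = e (pairs4 i)) ∧ (∀ i, y (e i) = e (shifted4 i)) := by
  obtain ⟨a, h1, h2, h3, h4⟩ := h
  obtain ⟨b, hb⟩ : ∃ b, x a = b := ⟨_, rfl⟩
  rw [hb] at h1 h2 h3 h4
  obtain ⟨c, hc⟩ : ∃ c, y b = c := ⟨_, rfl⟩
  rw [hc] at h2 h4
  obtain ⟨d, hd⟩ : ∃ d, x c = d := ⟨_, rfl⟩
  rw [hd] at h4
  have xb : x b = a := by rw [← hb, inv2_apply hx]
  have yc : y c = b := by rw [← hc, inv2_apply hy]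
  have xd : x d = c := by rw [← hd, inv2_apply hx]
  have ya : y a = d := by rw [← h4, inv2_apply hy]
  have hab : a ≠ b := h1.symm
  have hac : a ≠ c := fun e => h3 (by rw [e, yc])
  have hbc : b ≠ c := h2.symm
  have hbd : b ≠ d := fun e => hac (by rw [← xd, ← e, xb])
  have hcd : c ≠ d := fun e => hab (by rw [← h4, ← e, yc])
  have had : a ≠ d := fun e => hbc (by rw [← xd, ← e, hb])
  let e : Fin 4 ↪ α := vecEmb ![a, b, c, d] (by
    simp [List.ofFn_succ, hab, hac, had, hbc, hbd, hcd])
  refine ⟨e, ?_, ?_⟩ <;> intro i <;> fin_cases i <;>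
    simp [e, vecEmb_apply, pairs4, shifted4, Equiv.swap_apply_def, hb, xb, hd, xd, ya, hc, yc, h4]

/-- Six consecutive points on a cycle of length at least six. -/
theorem hexagon {x y : Perm α} (hx : x * x = 1) (hy : y * y = 1) (hS : x.support = y.support)
    (hnc : ∀ p, x p ≠ p → x p ≠ y p) (hC : ¬ HasC4 x y) (hne : 0 < x.support.card) :
    ∃ E : Fin 6 ↪ α, (∀ i, x (E i) = E (pairs6 i)) ∧ y (E 1) = E 2 ∧ y (E 3) = E 4 := by
  have both : ∀ p, x p ≠ p ↔ y p ≠ p := fun p => by rw [← Perm.mem_support, hS, Perm.mem_support]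
  have movx : ∀ p, x p ≠ p → x (x p) ≠ x p := fun p hp e => hp (x.injective e)
  have movy : ∀ p, y p ≠ p → y (y p) ≠ y p := fun p hp e => hp (y.injective e)
  obtain ⟨a, ha⟩ := Finset.card_pos.1 hne
  rw [Perm.mem_support] at ha
  obtain ⟨b, hb⟩ : ∃ b, x a = b := ⟨_, rfl⟩
  have mb : x b ≠ b := hb ▸ movx a ha
  obtain ⟨c, hc⟩ : ∃ c, y b = c := ⟨_, rfl⟩
  have mc : x c ≠ c := (both c).2 (hc ▸ movy b ((both b).1 mb))
  obtain ⟨d, hd⟩ : ∃ d, x c = d := ⟨_, rfl⟩
  have md : x d ≠ d := hd ▸ movx c mc
  obtain ⟨e, he⟩ : ∃ e, y d = e := ⟨_, rfl⟩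
  have me : x e ≠ e := (both e).2 (he ▸ movy d ((both d).1 md))
  obtain ⟨f, hf⟩ : ∃ f, x e = f := ⟨_, rfl⟩
  have xb : x b = a := by rw [← hb, inv2_apply hx]
  have xd : x d = c := by rw [← hd, inv2_apply hx]
  have xf : x f = e := by rw [← hf, inv2_apply hx]
  have yc : y c = b := by rw [← hc, inv2_apply hy]
  have ye : y e = d := by rw [← he, inv2_apply hy]
  have hab : a ≠ b := fun h => ha (by rw [hb, ← h])
  have hbc : b ≠ c := fun h => (both b).1 mb (by rw [hc, ← h])
  have hcd : c ≠ d := fun h => mc (by rw [hd, ← h])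
  have hde : d ≠ e := fun h => (both d).1 md (by rw [he, ← h])
  have hef : e ≠ f := fun h => me (by rw [hf, ← h])
  have hac : a ≠ c := fun h => hnc b mb (by rw [xb, hc, h])
  have hbd : b ≠ d := fun h => hac (by rw [← xd, ← h, xb])
  have had : a ≠ d := fun h => hbc (by rw [← xd, ← h, hb])
  have hce : c ≠ e := fun h => hbd (by rw [← ye, ← h, yc])
  have hbe : b ≠ e := fun h => hcd (by rw [← ye, ← h, hc])
  have hae : a ≠ e := fun h => hC ⟨a, ha, by rw [hb, hc]; exact hbc.symm,
    hnc a ha, by rw [hb, hc, hd, he, h]⟩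
  have hdf : d ≠ f := fun h => hce (by rw [← xd, h, xf])
  have hcf : c ≠ f := fun h => hde (by rw [← xf, ← h, hd])
  have hbf : b ≠ f := fun h => hae (by rw [← xf, ← h, xb])
  have haf : a ≠ f := fun h => hbe (by rw [← hb, h, xf])
  let E : Fin 6 ↪ α := vecEmb ![a, b, c, d, e, f] (by
    simp [List.ofFn_succ, hab, hac, had, hae, haf, hbc, hbd, hbe, hbf, hcd, hce, hcf, hde, hdf, hef])
  refine ⟨E, ?_, ?_, ?_⟩
  · intro i
    fin_cases i <;> simp [E, vecEmb_apply, pairs6, Equiv.swap_apply_def, hb, xb, hd, xd, hf, xf]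
  · simpa [E, vecEmb_apply] using hc
  · simpa [E, vecEmb_apply] using he

/-- Either the hexagon closes to an octagon, or its contraction has no isolated four cycle. -/
theorem octagon {x y : Perm α} (hx : x * x = 1) (hy : y * y = 1) (hS : x.support = y.support)
    (hnc : ∀ p, x p ≠ p → x p ≠ y p) (E : Fin 6 ↪ α) (hxe : ∀ i, x (E i) = E (pairs6 i))
    (hbc : y (E 1) = E 2) (hde : y (E 3) = E 4) (h8 : y (x (y (E 5))) = E 0) :
    ∃ e : Fin 8 ↪ α, (∀ i, x (e i) = e (pairs8 i)) ∧ (∀ i, y (e i) = e (cycle8 i)) := by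
  obtain ⟨g, hg⟩ : ∃ g, y (E 5) = g := ⟨_, rfl⟩
  rw [hg] at h8
  obtain ⟨h, hh⟩ : ∃ h, x g = h := ⟨_, rfl⟩
  rw [hh] at h8
  have hp6 : pairs6 0 = 1 ∧ pairs6 1 = 0 ∧ pairs6 2 = 3 ∧ pairs6 3 = 2 ∧ pairs6 4 = 5 ∧
      pairs6 5 = 4 := by decide
  obtain ⟨p0, p1, p2, p3, p4, p5⟩ := hp6
  have x0 := hxe 0; rw [p0] at x0
  have x1 := hxe 1; rw [p1] at x1
  have x2 := hxe 2; rw [p2] at x2
  have x3 := hxe 3; rw [p3] at x3
  have x4 := hxe 4; rw [p4] at x4
  have x5 := hxe 5; rw [p5] at x5
  have yc : y (E 2) = E 1 := by rw [← hbc, inv2_apply hy]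
  have ye : y (E 4) = E 3 := by rw [← hde, inv2_apply hy]
  have yg : y g = E 5 := by rw [← hg, inv2_apply hy]
  have xh : x h = g := by rw [← hh, inv2_apply hx]
  have ya : y (E 0) = h := by rw [← h8, inv2_apply hy]
  have mf : y (E 5) ≠ E 5 := by
    rw [← Perm.mem_support, ← hS, Perm.mem_support, x5]
    exact E.injective.ne (by decide)
  have g5 : g ≠ E 5 := fun e => mf (hg.trans e)
  have g4 : g ≠ E 4 := fun e => E.injective.ne (show (3 : Fin 6) ≠ 5 by decide) (by rw [← ye, ← e, yg])
  have g3 : g ≠ E 3 := fun e => E.injective.ne (show (4 : Fin 6) ≠ 5 by decide) (by rw [← hde, ← e, yg])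
  have g2 : g ≠ E 2 := fun e => E.injective.ne (show (1 : Fin 6) ≠ 5 by decide) (by rw [← yc, ← e, yg])
  have g1 : g ≠ E 1 := fun e => E.injective.ne (show (2 : Fin 6) ≠ 5 by decide) (by rw [← hbc, ← e, yg])
  have g0 : g ≠ E 0 := fun e => by
    have hh1 : h = E 1 := by rw [← hh, e, x0]
    rw [hh1, hbc] at h8
    exact E.injective.ne (show (2 : Fin 6) ≠ 0 by decide) h8
  have hne : ∀ i, h ≠ E i := by
    intro i e
    have hgi : g = E (pairs6 i) := by rw [← xh, e, hxe]
    fin_cases i
    · exact g1 (by simpa [p0] using hgi)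
    · exact g0 (by simpa [p1] using hgi)
    · exact g3 (by simpa [p2] using hgi)
    · exact g2 (by simpa [p3] using hgi)
    · exact g5 (by simpa [p4] using hgi)
    · exact g4 (by simpa [p5] using hgi)
  have gne : ∀ i, g ≠ E i := by
    intro i
    fin_cases i
    exacts [g0, g1, g2, g3, g4, g5]
  have hgh : g ≠ h := fun e => by
    have : x g ≠ g := by rw [← Perm.mem_support, hS, Perm.mem_support, yg]; exact g5.symm
    exact this (hh.trans e.symm)
  let e : Fin 8 ↪ α := vecEmb ![E 0, E 1, E 2, E 3, E 4, E 5, g, h] (by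
    simp [List.ofFn_succ, E.injective.eq_iff, (gne _).symm, (hne _).symm, hgh])
  refine ⟨e, ?_, ?_⟩
  · intro i
    fin_cases i <;>
      simp [e, vecEmb_apply, pairs8, Equiv.swap_apply_def, x0, x1, x2, x3, x4, x5, hh, xh]
  · intro i
    fin_cases i <;>
      simp [e, vecEmb_apply, cycle8, Equiv.swap_apply_def, hbc, yc, hde, ye, hg, yg, h8, ya]

/-- The main statement. -/
theorem good_of_not_bad : ∀ (n : ℕ) (x y : Perm α), x.support.card ≤ n → x * x = 1 → y * y = 1 →
    x.support.card = y.support.card → ¬ Bad x y → Good x y := by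
  intro n
  induction n with
  | zero => exact fun x y hn _ _ hc _ => good_one (by omega) (by omega)
  | succ n ih =>
    intro x y hn hx hy hc hbad
    obtain ⟨⟨sP4, fP4⟩, ⟨sQ4, fQ4⟩, -, ⟨sP6, fP6⟩, ⟨sP8, fP8⟩, ⟨sD, fD⟩, ⟨sDM, fDM⟩, ⟨sC, fC⟩,
      ⟨sCM, fCM⟩, d1, d2, c1, c2⟩ := gadget_facts
    by_cases h0 : x.support.card = 0
    · exact good_one h0 (by omega)
    by_cases hC : HasC4 x y
    · obtain ⟨e, hxe, hye⟩ := c4_points hx hy hC
      have gx := emb_agree e hxe
      have gy := emb_agree e hye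
      have cx := peel_card (emb_sq e sP4) gx
      have cy := peel_card (emb_sq e sQ4) gy
      rw [emb_card e fP4] at cx
      rw [emb_card e fQ4] at cy
      have sx := peel_sq hx (emb_sq e sP4) gx
      have sy := peel_sq hy (emb_sq e sQ4) gy
      set x' := x * emb e pairs4 with hx'
      set y' := y * emb e shifted4 with hy'
      by_cases hB : Bad x' y'
      · obtain ⟨e', hxe', hye'⟩ := c4_points sx sy
          (bad_hasC4 sx sy sx sy (fun _ _ => rfl) (fun _ _ => rfl) hB)
        have hx'fix := peel_emb_fix e sP4 fP4 hxe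
        have hdisj : ∀ i j, e i ≠ e' j := fun i j h => by
          have := hxe' j
          rw [← h, hx'fix] at this
          exact fP4 j (e'.injective (h ▸ this).symm)
        have hxx : ∀ j, x (e' j) = e' (pairs4 j) := fun j => by
          rw [← hxe' j, hx', peel_apply_fix (emb_fix e _ fun i => (hdisj i j).symm)]
        have hyy : ∀ j, y (e' j) = e' (shifted4 j) := fun j => by
          rw [← hye' j, hy', peel_apply_fix (emb_fix e _ fun i => (hdisj i j).symm)]
        let e8 : Fin 8 ↪ α := vecEmb ![e 0, e 1, e 2, e 3, e' 0, e' 1, e' 2, e' 3] (by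
          simp [List.ofFn_succ, e.injective.eq_iff, e'.injective.eq_iff, hdisj])
        have h8x : ∀ i, x (e8 i) = e8 (pairs8 i) := by
          intro i
          fin_cases i <;>
            simp [e8, vecEmb_apply, pairs8, pairs4, Equiv.swap_apply_def, hxe, hxx]
        have h8y : ∀ i, y (e8 i) = e8 (doubleC4 i) := by
          intro i
          fin_cases i <;>
            simp [e8, vecEmb_apply, doubleC4, shifted4, Equiv.swap_apply_def, hye, hyy]
        have kx := peel_card (emb_sq e8 sP8) (emb_agree e8 h8x)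
        have ky := peel_card (emb_sq e8 sD) (emb_agree e8 h8y)
        rw [emb_card e8 fP8] at kx
        rw [emb_card e8 fD] at ky
        have hb1 := hB.1
        have hb2 := congrArg Finset.card hB.2.1
        have z1 : (x * emb e8 pairs8).support.card = 0 := by omega
        have z2 : (y * emb e8 doubleC4).support.card = 0 := by omega
        exact gadget_step e8 sP8 sD sDM fP8 fD fDM d1 d2 h8x h8y (good_one z1 z2)
      · refine c4_step hx hy e hxe hye ?_ (ih x' y' (by omega) sx sy (by omega) hB)
        by_contra hz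
        have hz' : x'.support.card = 0 := Nat.eq_zero_of_not_pos hz
        have hz'' : y'.support.card = 0 := by omega
        rw [hx', Finset.card_eq_zero, Perm.support_eq_empty_iff] at hz'
        rw [hy', Finset.card_eq_zero, Perm.support_eq_empty_iff] at hz''
        have ex : x = emb e pairs4 := by
          rw [← peel_back (x := x) (emb_sq e sP4), hz', one_mul]
        have ey : y = emb e shifted4 := by
          rw [← peel_back (x := y) (emb_sq e sQ4), hz'', one_mul]
        apply hbad
        rw [ex, ey]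
        refine ⟨emb_card e fP4, by rw [emb_support e fP4, emb_support e fQ4], fun p hp => ?_⟩
        rw [emb_support e fP4] at hp
        obtain ⟨i, -, rfl⟩ := Finset.mem_map.1 hp
        rw [emb_apply, emb_apply]
        exact e.injective.ne ((by decide : ∀ j, pairs4 j ≠ shifted4 j) i)
    have step : ∀ x' y' : Perm α, x' * x' = 1 → y' * y' = 1 →
        x'.support.card < x.support.card → x'.support.card = y'.support.card →
        (∀ p ∈ x'.support, x p = x' p) → (∀ p ∈ y'.support, y p = y' p) → Good x' y' :=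
      fun x' y' sx sy hlt hc' ax ay => ih x' y' (by omega) sx sy hc'
        fun hB => hC (bad_hasC4 hx hy sx sy ax ay hB)
    by_cases hcom : ∃ p, x p ≠ p ∧ x p = y p
    · obtain ⟨a, ha, he⟩ := hcom
      have gx := swap_agree hx (rfl : x a = x a)
      have gy := swap_agree hy he.symm
      have hu := swap_sq a (x a)
      have cx := peel_card hu gx
      have cy := peel_card hu gy
      rw [Perm.card_support_swap ha.symm] at cx cy
      exact common_step hx hy ha.symm rfl he.symm (step _ _ (peel_sq hx hu gx) (peel_sq hy hu gy)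
        (by omega) (by omega) (agree_of_peel hu gx) (agree_of_peel hu gy))
    by_cases hend : ∃ a, y a = a ∧ x a ≠ a ∧ y (x a) ≠ x a
    · obtain ⟨a, hya, ha, hb⟩ := hend
      have gx := swap_agree hx (rfl : x a = x a)
      have gy := swap_agree hy (rfl : y (x a) = y (x a))
      have cx := peel_card (swap_sq a (x a)) gx
      have cy := peel_card (swap_sq (x a) (y (x a))) gy
      rw [Perm.card_support_swap ha.symm] at cx
      rw [Perm.card_support_swap hb.symm] at cy
      exact end_step hx hy ha.symm hb.symm rfl hya rfl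
        (step _ _ (peel_sq hx (swap_sq _ _) gx) (peel_sq hy (swap_sq _ _) gy)
          (by omega) (by omega) (agree_of_peel (swap_sq _ _) gx) (agree_of_peel (swap_sq _ _) gy))
    by_cases hend' : ∃ a, x a = a ∧ y a ≠ a ∧ x (y a) ≠ y a
    · obtain ⟨a, hxa, ha, hb⟩ := hend'
      have gy := swap_agree hy (rfl : y a = y a)
      have gx := swap_agree hx (rfl : x (y a) = x (y a))
      have cy := peel_card (swap_sq a (y a)) gy
      have cx := peel_card (swap_sq (y a) (x (y a))) gx
      rw [Perm.card_support_swap ha.symm] at cy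
      rw [Perm.card_support_swap hb.symm] at cx
      have g := step _ _ (peel_sq hx (swap_sq _ _) gx) (peel_sq hy (swap_sq _ _) gy)
        (by omega) (by omega) (agree_of_peel (swap_sq _ _) gx) (agree_of_peel (swap_sq _ _) gy)
      exact (end_step hy hx ha.symm hb.symm rfl hxa rfl
        (g.symm (peel_sq hx (swap_sq _ _) gx) (peel_sq hy (swap_sq _ _) gy) (by omega))).symm
          hy hx hc.symm
    push Not at hcom hend hend'
    by_cases hiso : ∃ a, y a = a ∧ x a ≠ a
    · obtain ⟨a, hya, ha⟩ := hiso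
      obtain ⟨c, hxc, hcy⟩ : ∃ c, x c = c ∧ y c ≠ c := by
        by_contra hno
        push Not at hno
        have hsub : y.support ⊆ x.support := fun p hp =>
          Perm.mem_support.2 fun e => Perm.mem_support.1 hp (hno p e)
        have := Finset.eq_of_subset_of_card_le hsub hc.le
        exact Perm.mem_support.1 (this ▸ Perm.mem_support.2 ha : a ∈ y.support) hya
      have hyb := hend a hya ha
      have hxd := hend' c hxc hcy
      have gx := swap_agree hx (rfl : x a = x a)
      have gy := swap_agree hy (rfl : y c = y c)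
      have cx := peel_card (swap_sq a (x a)) gx
      have cy := peel_card (swap_sq c (y c)) gy
      rw [Perm.card_support_swap ha.symm] at cx
      rw [Perm.card_support_swap hcy.symm] at cy
      exact iso_step hx hy ha.symm hcy.symm rfl rfl hya hyb hxc hxd
        (step _ _ (peel_sq hx (swap_sq _ _) gx) (peel_sq hy (swap_sq _ _) gy)
          (by omega) (by omega) (agree_of_peel (swap_sq _ _) gx) (agree_of_peel (swap_sq _ _) gy))
    push Not at hiso
    have hS : x.support = y.support := Finset.eq_of_subset_of_card_le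
      (fun p hp => Perm.mem_support.2 fun e => Perm.mem_support.1 hp (hiso p e)) hc.ge
    obtain ⟨E, hxe, hbc, hde⟩ := hexagon hx hy hS hcom hC (Nat.pos_of_ne_zero h0)
    by_cases h8 : y (x (y (E 5))) = E 0
    · obtain ⟨e8, h8x, h8y⟩ := octagon hx hy hS hcom E hxe hbc hde h8
      have gx := emb_agree e8 h8x
      have gy := emb_agree e8 h8y
      have cx := peel_card (emb_sq e8 sP8) gx
      have cy := peel_card (emb_sq e8 sC) gy
      rw [emb_card e8 fP8] at cx
      rw [emb_card e8 fC] at cy
      exact gadget_step e8 sP8 sC sCM fP8 fC fCM c1 c2 h8x h8y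
        (step _ _ (peel_sq hx (emb_sq e8 sP8) gx) (peel_sq hy (emb_sq e8 sC) gy)
          (by omega) (by omega) (agree_of_peel (emb_sq e8 sP8) gx) (agree_of_peel (emb_sq e8 sC) gy))
    set e4 := vecEmb ![E 1, E 2, E 3, E 4] (by simp [List.ofFn_succ, E.injective.eq_iff]) with he4
    have hcb : y (E 2) = E 1 := by rw [← hbc, inv2_apply hy]
    have hed : y (E 4) = E 3 := by rw [← hde, inv2_apply hy]
    have hye : ∀ i, y (e4 i) = e4 (pairs4 i) := by
      intro i
      fin_cases i <;>
        simp [he4, vecEmb_apply, pairs4, Equiv.swap_apply_def, hbc, hde, hcb, hed]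
    have gx := emb_agree E hxe
    have gy := emb_agree e4 hye
    have cx := peel_card (emb_sq E sP6) gx
    have cy := peel_card (emb_sq e4 sP4) gy
    rw [emb_card E fP6] at cx
    rw [emb_card e4 fP4] at cy
    have x0fix := peel_emb_fix E sP6 fP6 hxe
    have s0 := peel_sq hx (emb_sq E sP6) gx
    set x0 := x * emb E pairs6 with hx0
    have h05 : E 0 ≠ E 5 := E.injective.ne (by decide)
    have hsd : ∀ p, Equiv.swap (E 0) (E 5) p ≠ p → x0 p = p := fun p hp => by
      rcases swap_moved hp with rfl | rfl <;> exact x0fix _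
    have sx := join_sq s0 (swap_sq (E 0) (E 5)) hsd
    have sy := peel_sq hy (emb_sq e4 sP4) gy
    have cx' := join_card hsd
    rw [Perm.card_support_swap h05] at cx'
    refine contract_step hx hy E hxe hbc hde
      (ih (x0 * Equiv.swap (E 0) (E 5)) (y * emb e4 pairs4) (by omega) sx sy (by omega)
        fun hB => h8 ?_)
    set x' := x0 * Equiv.swap (E 0) (E 5) with hx'
    set y' := y * emb e4 pairs4 with hy'
    have xf : x' (E 5) = E 0 := by
      rw [hx', join_apply_moved (swap_sq _ _) hsd (by rw [Equiv.swap_apply_right]; exact h05),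
        Equiv.swap_apply_right]
    have xa : x' (E 0) = E 5 := by rw [← xf, inv2_apply sx]
    have hf5 : E 5 ∈ x'.support := Perm.mem_support.2 (by rw [xf]; exact h05)
    have key := bad_conj sx sy hB hf5
    rw [xf] at key
    have yout : ∀ p, p ∈ y'.support → y p = y' p := agree_of_peel (emb_sq e4 sP4) gy
    have hfy : E 5 ∈ y'.support := hB.2.1 ▸ hf5
    have hh' : y' (E 5) ∈ x'.support := hB.2.1.symm ▸ Perm.apply_mem_support.2 hfy
    have eh : y (E 5) = y' (E 5) := yout _ hfy
    have hxh : x (y' (E 5)) = x' (y' (E 5)) := by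
      have hsfix : Equiv.swap (E 0) (E 5) (y' (E 5)) = y' (E 5) := by
        refine Equiv.swap_apply_of_ne_of_ne (fun e => ?_) (fun e => Perm.mem_support.1 hfy e)
        exact hB.2.2 (E 5) hf5 (by rw [xf, e])
      have hm : y' (E 5) ∈ x0.support := by
        rw [Perm.mem_support]
        have := Perm.mem_support.1 hh'
        rwa [hx', join_apply_fix hsfix] at this
      rw [hx', join_apply_fix hsfix, hx0]
      exact agree_of_peel (emb_sq E sP6) gx _ hm
    rw [eh, hxh, yout _ (hB.2.1 ▸ Perm.apply_mem_support.2 hh'), key]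

end Cfsg.Agent.OddGraph
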