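import Cfsg.Agent.OddGraph.PermSteps

/-!
Gadgets on four and eight points.
-/

set_option autoImplicit false
set_option linter.unusedSectionVars false
set_option linter.unusedSimpArgs false

namespace Cfsg.Agent.OddGraph

open Equiv Equiv.Perm

variable {α : Type*} [Fintype α] [DecidableEq α]

def pairs4 : Perm (Fin 4) := Equiv.swap 0 1 * Equiv.swap 2 3
def shifted4 : Perm (Fin 4) := Equiv.swap 1 2 * Equiv.swap 3 0
def splice6 : Perm (Fin 6) := Equiv.swap 0 2 * Equiv.swap 4 1 * Equiv.swap 5 3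
def pairs6 : Perm (Fin 6) := Equiv.swap 0 1 * Equiv.swap 2 3 * Equiv.swap 4 5
def pairs8 : Perm (Fin 8) :=
  Equiv.swap 0 1 * Equiv.swap 2 3 * Equiv.swap 4 5 * Equiv.swap 6 7
def doubleC4 : Perm (Fin 8) :=
  Equiv.swap 1 2 * Equiv.swap 3 0 * Equiv.swap 5 6 * Equiv.swap 7 4
def doubleC4Mid : Perm (Fin 8) :=
  Equiv.swap 0 1 * Equiv.swap 5 6 * Equiv.swap 2 4 * Equiv.swap 3 7
def cycle8 : Perm (Fin 8) :=
  Equiv.swap 1 2 * Equiv.swap 3 4 * Equiv.swap 5 6 * Equiv.swap 7 0
def cycle8Mid : Perm (Fin 8) :=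
  Equiv.swap 0 1 * Equiv.swap 3 4 * Equiv.swap 5 7 * Equiv.swap 2 6

set_option maxRecDepth 10000 in
theorem gadget_facts :
    (pairs4 * pairs4 = 1 ∧ ∀ i, pairs4 i ≠ i) ∧ (shifted4 * shifted4 = 1 ∧ ∀ i, shifted4 i ≠ i) ∧
    (splice6 * splice6 = 1 ∧ ∀ i, splice6 i ≠ i) ∧ (pairs6 * pairs6 = 1 ∧ ∀ i, pairs6 i ≠ i) ∧
    (pairs8 * pairs8 = 1 ∧ ∀ i, pairs8 i ≠ i) ∧ (doubleC4 * doubleC4 = 1 ∧ ∀ i, doubleC4 i ≠ i) ∧
    (doubleC4Mid * doubleC4Mid = 1 ∧ ∀ i, doubleC4Mid i ≠ i) ∧
    (cycle8 * cycle8 = 1 ∧ ∀ i, cycle8 i ≠ i) ∧ (cycle8Mid * cycle8Mid = 1 ∧ ∀ i, cycle8Mid i ≠ i) ∧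
    (pairs8 * doubleC4Mid) ^ 3 = 1 ∧ (doubleC4Mid * doubleC4) ^ 3 = 1 ∧
    (pairs8 * cycle8Mid) ^ 3 = 1 ∧ (cycle8Mid * cycle8) ^ 3 = 1 := by
  refine ⟨?_, ?_, ?_, ?_, ?_, ?_, ?_, ?_, ?_, ?_, ?_, ?_, ?_⟩ <;> decide

theorem emb_range_mem {k : ℕ} (e : Fin k ↪ α) {P : Perm (Fin k)} (h : ∀ i, P i ≠ i) (i : Fin k) :
    e i ∈ (emb e P).support := by
  rw [emb_support e h]
  exact Finset.mem_map_of_mem _ (Finset.mem_univ i)

theorem peel_emb_fix {k : ℕ} (e : Fin k ↪ α) {x : Perm α} {P : Perm (Fin k)} (hP : P * P = 1)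
    (hf : ∀ i, P i ≠ i) (ha : ∀ i, x (e i) = e (P i)) (i : Fin k) : (x * emb e P) (e i) = e i :=
  peel_apply (emb_sq e hP) (emb_agree e ha) (Perm.mem_support.1 (emb_range_mem e hf i))

/-- Removing an eight point gadget. -/
theorem gadget_step {x y : Perm α} (e : Fin 8 ↪ α) {P Q R : Perm (Fin 8)} (hP : P * P = 1)
    (hQ : Q * Q = 1) (hR : R * R = 1) (fP : ∀ i, P i ≠ i) (fQ : ∀ i, Q i ≠ i) (fR : ∀ i, R i ≠ i)
    (h3 : (P * R) ^ 3 = 1) (h3' : (R * Q) ^ 3 = 1)
    (hxe : ∀ i, x (e i) = e (P i)) (hye : ∀ i, y (e i) = e (Q i))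
    (h : Good (x * emb e P) (y * emb e Q)) : Good x y := by
  have hu := emb_sq e hP
  have hv := emb_sq e hQ
  have hw := emb_sq e hR
  have gx := emb_agree e hxe
  have gy := emb_agree e hye
  have xfix := peel_emb_fix e hP fP hxe
  have yfix := peel_emb_fix e hQ fQ hye
  obtain ⟨z, hz, hzs, hzc, h1, h2⟩ := h
  have zfix : ∀ i, z (e i) = e i := fun i => fix_of_notMem fun hm => by
    rcases Finset.mem_union.1 (hzs hm) with hm | hm
    · exact Perm.mem_support.1 hm (xfix i)
    · exact Perm.mem_support.1 hm (yfix i)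
  have hd : ∀ p, emb e R p ≠ p → z p = p := fun p hp => by
    obtain ⟨i, rfl⟩ := emb_moved e hp
    exact zfix i
  refine ⟨z * emb e R, join_sq hz hw hd, ?_, ?_, ?_, ?_⟩
  · rw [join_support hd]
    refine Finset.union_subset (fun p hp => ?_) fun p hp => Finset.mem_union_left _ ?_
    · rcases Finset.mem_union.1 (hzs hp) with hm | hm
      · exact Finset.mem_union_left _ (peel_mem hu gx hm).1
      · exact Finset.mem_union_right _ (peel_mem hv gy hm).1
    · obtain ⟨i, rfl⟩ := emb_moved e (Perm.mem_support.1 hp)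
      rw [Perm.mem_support, hxe]
      exact e.injective.ne (fP i)
  · rw [join_card hd, hzc, ← peel_card hu gx, emb_card e fR, emb_card e fP]
  · have o := odd_layers (emb_commute e P xfix) (emb_commute e R xfix) (emb_commute e P zfix)
      (emb_commute e R zfix) h1 (by rw [← map_mul]; exact emb_odd e (by decide) h3)
    rwa [peel_back hu] at o
  · have o := odd_layers (emb_commute e R zfix) (emb_commute e Q zfix) (emb_commute e R yfix)
      (emb_commute e Q yfix) h2 (by rw [← map_mul]; exact emb_odd e (by decide) h3')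
    rwa [peel_back hv] at o

theorem good_one {x y : Perm α} (hx : x.support.card = 0) (hy : y.support.card = 0) : Good x y := by
  rw [Finset.card_eq_zero, Perm.support_eq_empty_iff] at hx hy
  subst hx hy
  exact ⟨1, one_mul 1, by simp, rfl, by simp, by simp⟩

/-- A four cycle beside a non-empty rest: splice it into an edge of the rest. -/
theorem c4_step {x y : Perm α} (hx : x * x = 1) (hy : y * y = 1) (e : Fin 4 ↪ α)
    (hxe : ∀ i, x (e i) = e (pairs4 i)) (hye : ∀ i, y (e i) = e (shifted4 i))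
    (hpos : 0 < (x * emb e pairs4).support.card)
    (h : Good (x * emb e pairs4) (y * emb e shifted4)) : Good x y := by
  obtain ⟨⟨sP, fP⟩, ⟨sQ, fQ⟩, ⟨sR, fR⟩, -⟩ := gadget_facts
  have hu := emb_sq e sP
  have hv := emb_sq e sQ
  have gx := emb_agree e hxe
  have gy := emb_agree e hye
  have xfix := peel_emb_fix e sP fP hxe
  have yfix := peel_emb_fix e sQ fQ hye
  obtain ⟨z, hz, hzs, hzc, h1, h2⟩ := h
  have zfix : ∀ i, z (e i) = e i := fun i => fix_of_notMem fun hm => by
    rcases Finset.mem_union.1 (hzs hm) with hm | hm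
    · exact Perm.mem_support.1 hm (xfix i)
    · exact Perm.mem_support.1 hm (yfix i)
  obtain ⟨P, hP⟩ : z.support.Nonempty := by rw [← Finset.card_pos, hzc]; exact hpos
  obtain ⟨Q, hQdef⟩ : ∃ Q, z P = Q := ⟨_, rfl⟩
  have hPQ : P ≠ Q := fun e' => Perm.mem_support.1 hP (hQdef.trans e'.symm)
  have hQP : z Q = P := by rw [← hQdef, inv2_apply hz]
  have hPe : ∀ i, e i ≠ P := fun i e' => Perm.mem_support.1 hP (by rw [← e']; exact zfix i)
  have hQe : ∀ i, e i ≠ Q := fun i e' => hPe i (by rw [← hQP, ← e', zfix])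
  let e6 : Fin 6 ↪ α := vecEmb ![e 0, e 1, e 2, e 3, P, Q] (by
    simp [List.ofFn_succ, hPQ, hPe, hQe, e.injective.eq_iff])
  set s := Equiv.swap P Q with hsdef
  have hs : s * s = 1 := swap_sq P Q
  have gz := swap_agree hz hQdef
  set z0 := z * s with hz0
  have hz0sq : z0 * z0 = 1 := peel_sq hz hs gz
  have z0fix : ∀ i, z0 (e6 i) = e6 i := by
    intro i
    have h4 : ∀ j, z0 (e j) = e j := fun j => by
      rw [hz0, Perm.mul_apply, hsdef, Equiv.swap_apply_of_ne_of_ne (hPe j) (hQe j), zfix]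
    have hP0 : z0 P = P := peel_apply hs gz (by rw [hsdef, Equiv.swap_apply_left]; exact hPQ.symm)
    have hQ0 : z0 Q = Q := peel_apply hs gz (by rw [hsdef, Equiv.swap_apply_right]; exact hPQ)
    fin_cases i <;> simp [e6, vecEmb_apply, h4, hP0, hQ0]
  have hw := emb_sq e6 sR
  have hd : ∀ p, emb e6 splice6 p ≠ p → z0 p = p := fun p hp => by
    obtain ⟨i, rfl⟩ := emb_moved e6 hp
    exact z0fix i
  set Z := z0 * emb e6 splice6 with hZ
  have hZe : ∀ i, Z (e6 i) = e6 (splice6 i) := fun i => by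
    rw [hZ, Perm.mul_apply, emb_apply, z0fix]
  have hZout : ∀ p, (∀ i, p ≠ e6 i) → Z p = z p := fun p hp => by
    rw [hZ, Perm.mul_apply, emb_fix e6 _ hp, hz0, Perm.mul_apply, hsdef,
      Equiv.swap_apply_of_ne_of_ne]
    · simpa [e6, vecEmb_apply] using hp 4
    · simpa [e6, vecEmb_apply] using hp 5
  have s0 : splice6 0 = 2 := by decide
  have s1 : splice6 1 = 4 := by decide
  have s2 : splice6 2 = 0 := by decide
  have s3 : splice6 3 = 5 := by decide
  have s4 : splice6 4 = 1 := by decide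
  have s5 : splice6 5 = 3 := by decide
  have Za : Z (e 0) = e 2 := by have := hZe 0; rw [s0] at this; exact this
  have Zb : Z (e 1) = P := by have := hZe 1; rw [s1] at this; exact this
  have Zc : Z (e 2) = e 0 := by have := hZe 2; rw [s2] at this; exact this
  have Zd : Z (e 3) = Q := by have := hZe 3; rw [s3] at this; exact this
  have ZP : Z P = e 1 := by have := hZe 4; rw [s4] at this; exact this
  have ZQ : Z Q = e 3 := by have := hZe 5; rw [s5] at this; exact this
  have xa : x (e 0) = e 1 := by rw [hxe]; congr 1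
  have xb : x (e 1) = e 0 := by rw [hxe]; congr 1
  have xc : x (e 2) = e 3 := by rw [hxe]; congr 1
  have xd : x (e 3) = e 2 := by rw [hxe]; congr 1
  have ya : y (e 0) = e 3 := by rw [hye]; congr 1
  have yb : y (e 1) = e 2 := by rw [hye]; congr 1
  have yc : y (e 2) = e 1 := by rw [hye]; congr 1
  have yd : y (e 3) = e 0 := by rw [hye]; congr 1
  have xout : ∀ p, (∀ i, p ≠ e i) → (x * emb e pairs4) p = x p := fun p hp =>
    peel_apply_fix (emb_fix e _ hp)
  have yout : ∀ p, (∀ i, p ≠ e i) → (y * emb e shifted4) p = y p := fun p hp =>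
    peel_apply_fix (emb_fix e _ hp)
  have stab : ∀ (f : Perm α), (∀ i, f (e i) = e i) → ∀ p, (∀ i, p ≠ e i) → ∀ i, f p ≠ e i :=
    fun f hf p hp i he => hp i (f.injective (he.trans (hf i).symm))
  have out6 : ∀ p, (∀ i, p ≠ e i) → p ≠ P → p ≠ Q → ∀ i, p ≠ e6 i := by
    intro p hp h4 h5 i
    fin_cases i <;> simp [e6, vecEmb_apply, hp, h4, h5]
  have notS : ∀ p, p ∉ Finset.univ.map e ↔ ∀ i, p ≠ e i := fun p => by simp [eq_comm]
  refine ⟨Z, join_sq hz0sq hw hd, ?_, ?_, ?_, ?_⟩
  · rw [hZ, join_support hd]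
    refine Finset.union_subset (fun p hp => ?_) fun p hp => ?_
    · rcases Finset.mem_union.1 (hzs (peel_mem hs gz hp).1) with hm | hm
      · exact Finset.mem_union_left _ (peel_mem hu gx hm).1
      · exact Finset.mem_union_right _ (peel_mem hv gy hm).1
    · obtain ⟨i, rfl⟩ := emb_moved e6 (Perm.mem_support.1 hp)
      have hT : ∀ j, e j ∈ x.support ∪ y.support := fun j => Finset.mem_union_left _ (by
        rw [Perm.mem_support, hxe]; exact e.injective.ne (fP j))
      have hsub : ∀ q, q ∈ z.support → q ∈ x.support ∪ y.support := fun q hq => by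
        rcases Finset.mem_union.1 (hzs hq) with hm | hm
        · exact Finset.mem_union_left _ (peel_mem hu gx hm).1
        · exact Finset.mem_union_right _ (peel_mem hv gy hm).1
      have hQs : Q ∈ z.support := by rw [Perm.mem_support, hQP]; exact hPQ
      fin_cases i
      · exact hT 0
      · exact hT 1
      · exact hT 2
      · exact hT 3
      · exact hsub P hP
      · exact hsub Q hQs
  · rw [hZ, join_card hd, emb_card e6 fR, ← peel_card hu gx, ← hzc, emb_card e fP,
      ← peel_card hs gz, hsdef, Perm.card_support_swap hPQ]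
  · refine odd_lift (x * emb e pairs4 * z) _ (Finset.univ.map e) (preserved_of_fix fun q hq => ?_)
      (fun p hp => ?_) (fun q hq => ?_) h1
    · obtain ⟨i, -, rfl⟩ := Finset.mem_map.1 hq
      rw [Perm.mul_apply, zfix, xfix]
    · rw [notS] at hp
      by_cases h4 : p = P
      · subst h4
        refine ⟨3, by decide, ?_⟩
        rw [pow_three_apply]
        simp only [Perm.mul_apply (f := x) (g := Z), ZP, xb, Za, xc, Zd]
        rw [Perm.mul_apply (x * emb e pairs4) z, hQdef, xout Q fun i => (hQe i).symm]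
      by_cases h5 : p = Q
      · subst h5
        refine ⟨3, by decide, ?_⟩
        rw [pow_three_apply]
        simp only [Perm.mul_apply (f := x) (g := Z), ZQ, xd, Zc, xa, Zb]
        rw [Perm.mul_apply (x * emb e pairs4) z, hQP, xout P fun i => (hPe i).symm]
      refine ⟨1, odd_one, ?_⟩
      rw [pow_one, Perm.mul_apply, Perm.mul_apply (x * emb e pairs4) z, hZout p (out6 p hp h4 h5),
        xout _ (stab z zfix p hp)]
    · obtain ⟨i, -, rfl⟩ := Finset.mem_map.1 hq
      have hxP : x P ∉ Finset.univ.map e := by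
        rw [← xout P fun i => (hPe i).symm, notS]
        exact stab _ xfix P fun i => (hPe i).symm
      have hxQ : x Q ∉ Finset.univ.map e := by
        rw [← xout Q fun i => (hQe i).symm, notS]
        exact stab _ xfix Q fun i => (hQe i).symm
      fin_cases i
      · exact ⟨2, by simpa [pow_two_apply, Perm.mul_apply, Za, xc, Zd] using hxQ⟩
      · exact ⟨1, by simpa [Perm.mul_apply, Zb] using hxP⟩
      · exact ⟨2, by simpa [pow_two_apply, Perm.mul_apply, Zc, xa, Zb] using hxP⟩
      · exact ⟨1, by simpa [Perm.mul_apply, Zd] using hxQ⟩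
  · refine odd_lift (z * (y * emb e shifted4)) _ (Finset.univ.map e)
      (preserved_of_fix fun q hq => ?_) (fun p hp => ?_) (fun q hq => ?_) h2
    · obtain ⟨i, -, rfl⟩ := Finset.mem_map.1 hq
      rw [Perm.mul_apply, yfix, zfix]
    · rw [notS] at hp
      have hq := stab _ yfix p hp
      rw [yout p hp] at hq
      by_cases h4 : y p = P
      · refine ⟨3, by decide, ?_⟩
        rw [pow_three_apply]
        simp only [Perm.mul_apply (f := Z) (g := y), h4, ZP, yb, Zc, ya, Zd]
        rw [Perm.mul_apply z (y * emb e shifted4), yout p hp, h4, hQdef]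
      by_cases h5 : y p = Q
      · refine ⟨3, by decide, ?_⟩
        rw [pow_three_apply]
        simp only [Perm.mul_apply (f := Z) (g := y), h5, ZQ, yd, Za, yc, Zb]
        rw [Perm.mul_apply z (y * emb e shifted4), yout p hp, h5, hQP]
      refine ⟨1, odd_one, ?_⟩
      rw [pow_one, Perm.mul_apply, Perm.mul_apply z (y * emb e shifted4), yout p hp,
        hZout _ (out6 _ hq h4 h5)]
    · obtain ⟨i, -, rfl⟩ := Finset.mem_map.1 hq
      have hP' : P ∉ Finset.univ.map e := by rw [notS]; exact fun i => (hPe i).symm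
      have hQ' : Q ∉ Finset.univ.map e := by rw [notS]; exact fun i => (hQe i).symm
      fin_cases i
      · exact ⟨1, by simpa [Perm.mul_apply, ya, Zd] using hQ'⟩
      · exact ⟨2, by simpa [pow_two_apply, Perm.mul_apply, yb, Zc, ya, Zd] using hQ'⟩
      · exact ⟨1, by simpa [Perm.mul_apply, yc, Zb] using hP'⟩
      · exact ⟨2, by simpa [pow_two_apply, Perm.mul_apply, yd, Za, yc, Zb] using hP'⟩

/-- Six consecutive points `a b c d e f` of a cycle contract to the edge `a f`. -/
theorem contract_step {x y : Perm α} (hx : x * x = 1) (hy : y * y = 1) (E : Fin 6 ↪ α)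
    (hxe : ∀ i, x (E i) = E (pairs6 i)) (hbc : y (E 1) = E 2) (hde : y (E 3) = E 4)
    (h : Good (x * emb E pairs6 * Equiv.swap (E 0) (E 5))
      (y * emb (vecEmb ![E 1, E 2, E 3, E 4] (by simp [List.ofFn_succ, E.injective.eq_iff])) pairs4)) :
    Good x y := by
  obtain ⟨⟨sI, fI⟩, -, -, ⟨sP, fP⟩, -⟩ := gadget_facts
  set e4 := vecEmb ![E 1, E 2, E 3, E 4] (by simp [List.ofFn_succ, E.injective.eq_iff]) with he4
  have hye : ∀ i, y (e4 i) = e4 (pairs4 i) := by
    intro i
    have i0 : pairs4 0 = 1 := by decide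
    have i1 : pairs4 1 = 0 := by decide
    have i2 : pairs4 2 = 3 := by decide
    have i3 : pairs4 3 = 2 := by decide
    have hcb : y (E 2) = E 1 := by rw [← hbc, inv2_apply hy]
    have hed : y (E 4) = E 3 := by rw [← hde, inv2_apply hy]
    fin_cases i <;> simp [he4, vecEmb_apply, i0, i1, i2, i3, hbc, hde, hcb, hed]
  have hu := emb_sq E sP
  have hv : emb e4 pairs4 * emb e4 pairs4 = 1 := emb_sq e4 sI
  have gx := emb_agree E hxe
  have gy := emb_agree e4 hye
  have x0fix := peel_emb_fix E sP fP hxe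
  have yfix := peel_emb_fix e4 sI fI hye
  set x0 := x * emb E pairs6 with hx0
  set s := Equiv.swap (E 0) (E 5) with hsdef
  have h05 : E 0 ≠ E 5 := E.injective.ne (by decide)
  have hsd : ∀ p, s p ≠ p → x0 p = p := fun p hp => by
    rcases swap_moved hp with rfl | rfl <;> exact x0fix _
  have inner : ∀ i, ∃ j : Fin 6, e4 i = E j ∧ j ≠ 0 ∧ j ≠ 5 := by
    intro i
    fin_cases i
    · exact ⟨1, rfl, by decide, by decide⟩
    · exact ⟨2, rfl, by decide, by decide⟩
    · exact ⟨3, rfl, by decide, by decide⟩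
    · exact ⟨4, rfl, by decide, by decide⟩
  have x'fix : ∀ i, (x0 * s) (e4 i) = e4 i := by
    intro i
    obtain ⟨j, hj, h0, h5⟩ := inner i
    rw [hj, Perm.mul_apply, hsdef, Equiv.swap_apply_of_ne_of_ne (E.injective.ne h0)
      (E.injective.ne h5), x0fix]
  obtain ⟨z, hz, hzs, hzc, h1, h2⟩ := h
  have zfix : ∀ i, z (e4 i) = e4 i := fun i => fix_of_notMem fun hm => by
    rcases Finset.mem_union.1 (hzs hm) with hm | hm
    · exact Perm.mem_support.1 hm (x'fix i)
    · exact Perm.mem_support.1 hm (yfix i)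
  have hd : ∀ p, emb e4 pairs4 p ≠ p → z p = p := fun p hp => by
    obtain ⟨i, rfl⟩ := emb_moved e4 hp
    exact zfix i
  have hxs : ∀ j, E j ∈ x.support := fun j => by
    rw [Perm.mem_support, hxe]; exact E.injective.ne (fP j)
  refine ⟨z * emb e4 pairs4, join_sq hz hv hd, ?_, ?_, ?_, ?_⟩
  · rw [join_support hd]
    refine Finset.union_subset (fun p hp => ?_) fun p hp => ?_
    · rcases Finset.mem_union.1 (hzs hp) with hm | hm
      · rw [join_support hsd, Finset.mem_union] at hm
        rcases hm with hm | hm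
        · exact Finset.mem_union_left _ (peel_mem hu gx hm).1
        · rcases swap_moved (Perm.mem_support.1 hm) with rfl | rfl <;>
            exact Finset.mem_union_left _ (hxs _)
      · exact Finset.mem_union_right _ (peel_mem hv gy hm).1
    · obtain ⟨i, rfl⟩ := emb_moved e4 (Perm.mem_support.1 hp)
      obtain ⟨j, hj, -, -⟩ := inner i
      rw [hj]
      exact Finset.mem_union_left _ (hxs j)
  · rw [join_card hd, hzc, join_card hsd, emb_card e4 fI, hsdef, Perm.card_support_swap h05,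
      ← peel_card hu gx, emb_card E fP]
  · refine odd_lift (x0 * s * z) _ (Finset.univ.map e4) (preserved_of_fix fun q hq => ?_)
      (fun p hp => ?_) (fun q hq => ?_) h1
    · obtain ⟨i, -, rfl⟩ := Finset.mem_map.1 hq
      rw [Perm.mul_apply, zfix, x'fix]
    · have hp' : ∀ i, p ≠ e4 i := by simpa [eq_comm] using hp
      have hzp : ∀ i, z p ≠ e4 i := fun i e' => hp' i (z.injective (e'.trans (zfix i).symm))
      set g' := x * (z * emb e4 pairs4) with hg'
      have first : g' p = x (z p) := by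
        rw [hg', Perm.mul_apply, Perm.mul_apply, emb_fix e4 _ hp']
      have stepin : ∀ i, g' (e4 i) = x (e4 (pairs4 i)) := fun i => by
        rw [hg', Perm.mul_apply, Perm.mul_apply, emb_apply, zfix]
      have g0 : g' (E 1) = x (E 2) := stepin 0
      have g1 : g' (E 2) = x (E 1) := stepin 1
      have g2 : g' (E 3) = x (E 4) := stepin 2
      have g3 : g' (E 4) = x (E 3) := stepin 3
      have x_ : ∀ i j : Fin 6, pairs6 i = j → x (E i) = E j := fun i j hij => by rw [hxe, hij]
      have gp : (x0 * s * z) p = x0 (s (z p)) := rfl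
      by_cases h0 : z p = E 0
      · refine ⟨3, by decide, ?_⟩
        rw [pow_three_apply, first, h0, x_ 0 1 (by decide), g0, x_ 2 3 (by decide), g2,
          x_ 4 5 (by decide), gp, h0, hsdef, Equiv.swap_apply_left, x0fix]
      by_cases h5 : z p = E 5
      · refine ⟨3, by decide, ?_⟩
        rw [pow_three_apply, first, h5, x_ 5 4 (by decide), g3, x_ 3 2 (by decide), g1,
          x_ 1 0 (by decide), gp, h5, hsdef, Equiv.swap_apply_right, x0fix]
      refine ⟨1, odd_one, ?_⟩
      rw [pow_one, first, gp, hsdef, Equiv.swap_apply_of_ne_of_ne h0 h5, hx0,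
        peel_apply_fix (emb_fix E _ fun j => ?_)]
      fin_cases j
      · exact h0
      · exact hzp 0
      · exact hzp 1
      · exact hzp 2
      · exact hzp 3
      · exact h5
    · obtain ⟨i, -, rfl⟩ := Finset.mem_map.1 hq
      set g' := x * (z * emb e4 pairs4) with hg'
      have stepin : ∀ i, g' (e4 i) = x (e4 (pairs4 i)) := fun i => by
        rw [hg', Perm.mul_apply, Perm.mul_apply, emb_apply, zfix]
      have g0 : g' (E 1) = x (E 2) := stepin 0
      have g1 : g' (E 2) = x (E 1) := stepin 1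
      have g2 : g' (E 3) = x (E 4) := stepin 2
      have g3 : g' (E 4) = x (E 3) := stepin 3
      have x_ : ∀ i j : Fin 6, pairs6 i = j → x (E i) = E j := fun i j hij => by rw [hxe, hij]
      have out : ∀ j : Fin 6, j = 0 ∨ j = 5 → E j ∉ Finset.univ.map e4 := by
        intro j hj hm
        obtain ⟨i, -, he⟩ := Finset.mem_map.1 hm
        obtain ⟨k, hk, h0, h5⟩ := inner i
        have := E.injective (hk ▸ he)
        omega
      fin_cases i
      · refine ⟨2, ?_⟩
        show (g' ^ 2) (E 1) ∉ _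
        rw [pow_two_apply, g0, x_ 2 3 (by decide), g2, x_ 4 5 (by decide)]
        exact out 5 (Or.inr rfl)
      · refine ⟨1, ?_⟩
        show (g' ^ 1) (E 2) ∉ _
        rw [pow_one, g1, x_ 1 0 (by decide)]
        exact out 0 (Or.inl rfl)
      · refine ⟨1, ?_⟩
        show (g' ^ 1) (E 3) ∉ _
        rw [pow_one, g2, x_ 4 5 (by decide)]
        exact out 5 (Or.inr rfl)
      · refine ⟨2, ?_⟩
        show (g' ^ 2) (E 4) ∉ _
        rw [pow_two_apply, g3, x_ 3 2 (by decide), g1, x_ 1 0 (by decide)]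
        exact out 0 (Or.inl rfl)
  · rw [show z * emb e4 pairs4 * y = z * (y * emb e4 pairs4) by
      rw [mul_assoc, (peel_comm hy hv gy).eq]]
    exact h2

end Cfsg.Agent.OddGraph
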