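import Cfsg.Agent.OddGraph.PermTools
import Mathlib.Data.List.FinRange

/-!
Reduction steps for building a common odd neighbour of two involutory permutations.
-/

set_option autoImplicit false
set_option linter.unusedSectionVars false

namespace Cfsg.Agent.OddGraph

open Equiv Equiv.Perm

variable {α : Type*} [Fintype α] [DecidableEq α]

/-- A common neighbour supported inside the two supports. -/
def Good (x y : Perm α) : Prop :=
  ∃ z : Perm α, z * z = 1 ∧ z.support ⊆ x.support ∪ y.support ∧
    z.support.card = x.support.card ∧ Odd (orderOf (x * z)) ∧ Odd (orderOf (z * y))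

/-- An isolated alternating four cycle. -/
def Bad (x y : Perm α) : Prop :=
  x.support.card = 4 ∧ x.support = y.support ∧ ∀ p ∈ x.support, x p ≠ y p

/-- Some component is an alternating four cycle. -/
def HasC4 (x y : Perm α) : Prop :=
  ∃ a, x a ≠ a ∧ y (x a) ≠ x a ∧ x a ≠ y a ∧ y (x (y (x a))) = a

/-- The embedding given by a tuple without repetition. -/
def vecEmb {k : ℕ} (v : Fin k → α) (h : (List.ofFn v).Nodup) : Fin k ↪ α :=
  ⟨v, List.nodup_ofFn.1 h⟩

theorem vecEmb_apply {k : ℕ} (v : Fin k → α) (h : (List.ofFn v).Nodup) (i : Fin k) :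
    vecEmb v h i = v i := rfl

theorem Good.symm {x y : Perm α} (hx : x * x = 1) (hy : y * y = 1)
    (hc : x.support.card = y.support.card) (h : Good x y) : Good y x := by
  obtain ⟨z, hz, hs, hcz, h1, h2⟩ := h
  refine ⟨z, hz, by rwa [Finset.union_comm], hcz.trans hc, ?_, ?_⟩
  · rwa [orderOf_mul_swap]
  · rwa [orderOf_mul_swap]

theorem bad_conj {x y : Perm α} (hx : x * x = 1) (hy : y * y = 1) (h : Bad x y) {p : α}
    (hp : p ∈ x.support) : y (x (y p)) = x p := by
  obtain ⟨h4, hS, hne⟩ := h
  have hxp := Perm.apply_mem_support.2 hp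
  have hyp : y p ∈ x.support := by rw [hS] at hp ⊢; exact Perm.apply_mem_support.2 hp
  have hq : x (y p) ∈ x.support := Perm.apply_mem_support.2 hyp
  have hr : y (x p) ∈ x.support := by rw [hS] at hxp ⊢; exact Perm.apply_mem_support.2 hxp
  have e1 : x p ≠ p := Perm.mem_support.1 hp
  have e2 : y p ≠ p := Perm.mem_support.1 (hS ▸ hp)
  have e3 : x p ≠ y p := hne p hp
  have e4 : x (y p) ≠ p := fun e => e3 (by conv_lhs => rw [← e, inv2_apply hx])
  have e5 : x (y p) ≠ x p := fun e => e2 (x.injective e)
  have e6 : x (y p) ≠ y p := Perm.mem_support.1 hyp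
  have f4 : y (x p) ≠ p := fun e => e3 (by conv_rhs => rw [← e, inv2_apply hy])
  have f5 : y (x p) ≠ y p := fun e => e1 (y.injective e)
  have f6 : y (x p) ≠ x p := Perm.mem_support.1 (hS ▸ hxp)
  have hT : ({p, x p, y p, x (y p)} : Finset α) = x.support := by
    refine Finset.eq_of_subset_of_card_le (fun q hq' => ?_) ?_
    · simp only [Finset.mem_insert, Finset.mem_singleton] at hq'
      rcases hq' with rfl | rfl | rfl | rfl <;> assumption
    · rw [h4, Finset.card_insert_of_notMem, Finset.card_insert_of_notMem,
        Finset.card_pair e6.symm]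
      · simp [e3, e5.symm]
      · simp [e1.symm, e2.symm, e4.symm]
  have : y (x p) = x (y p) := by
    rw [← hT] at hr
    simp only [Finset.mem_insert, Finset.mem_singleton] at hr
    tauto
  rw [← this, inv2_apply hy]

theorem bad_hasC4 {x y : Perm α} (hx : x * x = 1) (hy : y * y = 1) {x' y' : Perm α}
    (hx' : x' * x' = 1) (hy' : y' * y' = 1) (hxa : ∀ p ∈ x'.support, x p = x' p)
    (hya : ∀ p ∈ y'.support, y p = y' p) (h : Bad x' y') : HasC4 x y := by
  obtain ⟨a, ha⟩ : x'.support.Nonempty := by rw [← Finset.card_pos, h.1]; norm_num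
  have hb := Perm.apply_mem_support.2 ha
  have hb' : x' a ∈ y'.support := h.2.1 ▸ hb
  have hc : y' (x' a) ∈ x'.support := h.2.1.symm ▸ Perm.apply_mem_support.2 hb'
  have hd := Perm.apply_mem_support.2 hc
  have ea := hxa a ha
  have eb := hya _ hb'
  have ec := hxa _ hc
  have ed := hya _ (h.2.1 ▸ hd)
  refine ⟨a, ?_, ?_, ?_, ?_⟩
  · rw [ea]; exact Perm.mem_support.1 ha
  · rw [ea, eb]; exact Perm.mem_support.1 hb'
  · rw [ea, hya a (h.2.1 ▸ ha)]; exact h.2.2 a ha
  · rw [ea, eb, ec, ed, bad_conj hx' hy' h hb, inv2_apply hx']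

theorem swap_sq (a b : α) : Equiv.swap a b * Equiv.swap a b = 1 := Equiv.swap_mul_self a b

theorem swap_agree {x : Perm α} (hx : x * x = 1) {a b : α} (h : x a = b) :
    ∀ p, Equiv.swap a b p ≠ p → x p = Equiv.swap a b p := by
  intro p hp
  rcases swap_moved hp with rfl | rfl
  · rw [Equiv.swap_apply_left, h]
  · rw [Equiv.swap_apply_right, ← h, inv2_apply hx]

theorem peel_mem {x u : Perm α} (hu : u * u = 1) (hag : ∀ p, u p ≠ p → x p = u p) {p : α}
    (hp : p ∈ (x * u).support) : p ∈ x.support ∧ u p = p ∧ x p = (x * u) p := by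
  rw [peel_support hu hag, Finset.mem_sdiff] at hp
  have := fix_of_notMem hp.2
  exact ⟨hp.1, this, (peel_apply_fix this).symm⟩

/-- A common edge. -/
theorem common_step {x y : Perm α} (hx : x * x = 1) (hy : y * y = 1) {a b : α} (hab : a ≠ b)
    (hxa : x a = b) (hya : y a = b) (h : Good (x * Equiv.swap a b) (y * Equiv.swap a b)) :
    Good x y := by
  set u := Equiv.swap a b with hu'
  have hu : u * u = 1 := swap_sq a b
  have gx := swap_agree hx hxa
  have gy := swap_agree hy hya
  obtain ⟨z, hz, hzs, hzc, h1, h2⟩ := h
  have hd : ∀ p, u p ≠ p → z p = p := fun p hp => fix_of_notMem fun hm => by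
    rcases Finset.mem_union.1 (hzs hm) with hm | hm
    · exact hp (peel_mem hu gx hm).2.1
    · exact hp (peel_mem hu gy hm).2.1
  refine ⟨z * u, join_sq hz hu hd, ?_, ?_, ?_, ?_⟩
  · rw [join_support hd]
    refine Finset.union_subset (fun p hp => ?_) fun p hp => Finset.mem_union_left _ ?_
    · rcases Finset.mem_union.1 (hzs hp) with hm | hm
      · exact Finset.mem_union_left _ (peel_mem hu gx hm).1
      · exact Finset.mem_union_right _ (peel_mem hu gy hm).1
    · rw [Perm.mem_support] at hp ⊢
      rw [gx p hp]; exact hp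
  · rw [join_card hd, hzc, peel_card hu gx]
  · rw [show x * (z * u) = x * u * z by rw [mul_assoc, (join_comm hd).eq]]
    exact h1
  · rw [show z * u * y = z * (y * u) by rw [mul_assoc, (peel_comm hy hu gy).eq]]
    exact h2

/-- A path ending at a point fixed by the second involution. -/
theorem end_step {x y : Perm α} (hx : x * x = 1) (hy : y * y = 1) {a b c : α} (hab : a ≠ b)
    (hbc : b ≠ c) (hxa : x a = b) (hya : y a = a) (hyb : y b = c)
    (h : Good (x * Equiv.swap a b) (y * Equiv.swap b c)) : Good x y := by
  have hac : a ≠ c := fun e => hab (by rw [← inv2_apply hy b, hyb, ← e, hya])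
  set u := Equiv.swap a b with hu'
  set v := Equiv.swap b c with hv'
  have hu : u * u = 1 := swap_sq a b
  have hv : v * v = 1 := swap_sq b c
  have gx := swap_agree hx hxa
  have gy := swap_agree hy hyb
  obtain ⟨z, hz, hzs, hzc, h1, h2⟩ := h
  have za : z a = a := fix_of_notMem fun hm => by
    rcases Finset.mem_union.1 (hzs hm) with hm | hm
    · have := (peel_mem hu gx hm).2.1
      rw [hu', Equiv.swap_apply_left] at this
      exact hab this.symm
    · exact Perm.mem_support.1 (peel_mem hv gy hm).1 hya
  have zb : z b = b := fix_of_notMem fun hm => by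
    rcases Finset.mem_union.1 (hzs hm) with hm | hm
    · have := (peel_mem hu gx hm).2.1
      rw [hu', Equiv.swap_apply_right] at this
      exact hab this
    · have := (peel_mem hv gy hm).2.1
      rw [hv', Equiv.swap_apply_left] at this
      exact hbc this.symm
  have hd : ∀ p, u p ≠ p → z p = p := fun p hp => by
    rcases swap_moved hp with rfl | rfl <;> assumption
  refine ⟨z * u, join_sq hz hu hd, ?_, ?_, ?_, ?_⟩
  · rw [join_support hd]
    refine Finset.union_subset (fun p hp => ?_) fun p hp => Finset.mem_union_left _ ?_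
    · rcases Finset.mem_union.1 (hzs hp) with hm | hm
      · exact Finset.mem_union_left _ (peel_mem hu gx hm).1
      · exact Finset.mem_union_right _ (peel_mem hv gy hm).1
    · rw [Perm.mem_support] at hp ⊢
      rw [gx p hp]; exact hp
  · rw [join_card hd, hzc, peel_card hu gx]
  · rw [show x * (z * u) = x * u * z by rw [mul_assoc, (join_comm hd).eq]]
    exact h1
  · have ga : (z * (y * v)) a = a := by
      rw [Perm.mul_apply, Perm.mul_apply, hv', Equiv.swap_apply_of_ne_of_ne hab hac, hya, za]
    have gb : (z * (y * v)) b = b := by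
      rw [Perm.mul_apply, peel_apply hv gy (by rw [hv', Equiv.swap_apply_left]; exact hbc.symm), zb]
    refine odd_lift (z * (y * v)) _ {a, b} (preserved_of_fix fun s hs => ?_) (fun p hp => ?_)
      (fun s hs => ?_) h2
    · simp only [Finset.mem_insert, Finset.mem_singleton] at hs
      rcases hs with rfl | rfl <;> assumption
    · simp only [Finset.mem_insert, Finset.mem_singleton, not_or] at hp
      by_cases hpc : p = c
      · subst hpc
        refine ⟨3, by decide, ?_⟩
        have hgc : (z * (y * v)) p = z p := by
          rw [Perm.mul_apply, peel_apply hv gy (by rw [hv', Equiv.swap_apply_right]; exact hbc)]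
        have e1 : (z * u * y) p = a := by
          simp only [Perm.mul_apply]
          rw [← hyb, inv2_apply hy, hu', Equiv.swap_apply_right, za]
        have e2 : (z * u * y) a = b := by
          simp only [Perm.mul_apply]
          rw [hya, hu', Equiv.swap_apply_left, zb]
        have e3 : (z * u * y) b = z p := by
          simp only [Perm.mul_apply]
          rw [hyb, hu', Equiv.swap_apply_of_ne_of_ne hp.1 hp.2]
        rw [pow_three_apply, e1, e2, e3, hgc]
      · refine ⟨1, odd_one, ?_⟩
        have h1' : y p ≠ a := fun e => hp.1 (y.injective (e.trans hya.symm))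
        have h2' : y p ≠ b := fun e => hpc (by rw [← inv2_apply hy p, e, hyb])
        simp only [pow_one, Perm.mul_apply]
        rw [hu', hv', Equiv.swap_apply_of_ne_of_ne hp.2 hpc, Equiv.swap_apply_of_ne_of_ne h1' h2']
    · have hzc' : z c ∉ ({a, b} : Finset α) := by
        simp only [Finset.mem_insert, Finset.mem_singleton, not_or]
        exact ⟨fun e => hac (z.injective (e.trans za.symm)).symm,
          fun e => hbc (z.injective (e.trans zb.symm)).symm⟩
      have e3 : (z * u * y) b = z c := by
        simp only [Perm.mul_apply]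
        rw [hyb, hu', Equiv.swap_apply_of_ne_of_ne hac.symm hbc.symm]
      simp only [Finset.mem_insert, Finset.mem_singleton] at hs
      rcases hs with rfl | rfl
      · refine ⟨2, ?_⟩
        have e2 : (z * u * y) s = b := by
          simp only [Perm.mul_apply]
          rw [hya, hu', Equiv.swap_apply_left, zb]
        rw [pow_two_apply, e2, e3]
        exact hzc'
      · refine ⟨1, ?_⟩
        rw [pow_one, e3]
        exact hzc'

/-- Two isolated edges of different colours. -/
theorem iso_step {x y : Perm α} (hx : x * x = 1) (hy : y * y = 1) {a b c d : α} (hab : a ≠ b)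
    (hcd : c ≠ d) (hxa : x a = b) (hyc : y c = d) (hya : y a = a) (hyb : y b = b) (hxc : x c = c)
    (hxd : x d = d) (h : Good (x * Equiv.swap a b) (y * Equiv.swap c d)) : Good x y := by
  have hac : a ≠ c := fun e => hab (by rw [← hxa, e, hxc])
  have hbc : b ≠ c := fun e => hcd (by rw [← hyc, ← e, hyb])
  have hbd : b ≠ d := fun e => hab (x.injective (by rw [hxa, e, hxd]))
  set u := Equiv.swap a b with hu'
  set v := Equiv.swap c d with hv'
  set w := Equiv.swap b c with hw'
  have hu : u * u = 1 := swap_sq a b
  have hv : v * v = 1 := swap_sq c d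
  have hw : w * w = 1 := swap_sq b c
  have gx := swap_agree hx hxa
  have gy := swap_agree hy hyc
  have xa : (x * u) a = a := peel_apply hu gx (by rw [hu', Equiv.swap_apply_left]; exact hab.symm)
  have xb : (x * u) b = b := peel_apply hu gx (by rw [hu', Equiv.swap_apply_right]; exact hab)
  have xc : (x * u) c = c := by
    rw [Perm.mul_apply, hu', Equiv.swap_apply_of_ne_of_ne hac.symm hbc.symm, hxc]
  have xd : (x * u) d = d := by
    rw [Perm.mul_apply, hu', Equiv.swap_apply_of_ne_of_ne _ hbd.symm, hxd]
    intro e
    exact hbd (hxa.symm.trans (by rw [← e, hxd]))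
  have yc : (y * v) c = c := peel_apply hv gy (by rw [hv', Equiv.swap_apply_left]; exact hcd.symm)
  have yd : (y * v) d = d := peel_apply hv gy (by rw [hv', Equiv.swap_apply_right]; exact hcd)
  have yb : (y * v) b = b := by
    rw [Perm.mul_apply, hv', Equiv.swap_apply_of_ne_of_ne hbc hbd, hyb]
  have ya : (y * v) a = a := by
    rw [Perm.mul_apply, hv', Equiv.swap_apply_of_ne_of_ne hac _, hya]
    intro e
    exact hbd (hxa.symm.trans (by rw [e, hxd]))
  obtain ⟨z, hz, hzs, hzc, h1, h2⟩ := h
  have zf : ∀ {q : α}, (x * u) q = q → (y * v) q = q → z q = q := fun {q} e1 e2 =>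
    fix_of_notMem fun hm => by
      rcases Finset.mem_union.1 (hzs hm) with hm | hm
      · exact Perm.mem_support.1 hm e1
      · exact Perm.mem_support.1 hm e2
  have za := zf xa ya
  have zb := zf xb yb
  have zc := zf xc yc
  have zd := zf xd yd
  have hd : ∀ p, w p ≠ p → z p = p := fun p hp => by
    rcases swap_moved hp with rfl | rfl <;> assumption
  refine ⟨z * w, join_sq hz hw hd, ?_, ?_, ?_, ?_⟩
  · rw [join_support hd]
    refine Finset.union_subset (fun p hp => ?_) fun p hp => ?_
    · rcases Finset.mem_union.1 (hzs hp) with hm | hm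
      · exact Finset.mem_union_left _ (peel_mem hu gx hm).1
      · exact Finset.mem_union_right _ (peel_mem hv gy hm).1
    · rcases swap_moved (Perm.mem_support.1 hp) with rfl | rfl
      · refine Finset.mem_union_left _ (Perm.mem_support.2 ?_)
        rw [← hxa, inv2_apply hx, hxa]
        exact hab
      · refine Finset.mem_union_right _ (Perm.mem_support.2 ?_)
        rw [hyc]
        exact hcd.symm
  · rw [join_card hd, hzc, ← peel_card hu gx, hw', hu', Perm.card_support_swap hbc,
      Perm.card_support_swap hab]
  · have e := odd_layers (x' := x * u) (u := u) (z' := z) (w := w) ?_ ?_ ?_ ?_ h1 ?_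
    · rwa [peel_back hu] at e
    · exact commute_of_fix fun p hp => by rcases swap_moved hp with rfl | rfl <;> assumption
    · exact commute_of_fix fun p hp => by rcases swap_moved hp with rfl | rfl <;> assumption
    · exact commute_of_fix fun p hp => by rcases swap_moved hp with rfl | rfl <;> assumption
    · exact commute_of_fix hd
    · rw [hu', hw', Equiv.swap_comm a b]
      exact odd_three_cycle hab.symm hbc hac
  · have e := odd_layers (x' := z) (u := w) (z' := y * v) (w := v) ?_ ?_ ?_ ?_ h2 ?_
    · rwa [peel_back hv] at e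
    · exact commute_of_fix hd
    · exact commute_of_fix fun p hp => by rcases swap_moved hp with rfl | rfl <;> assumption
    · exact commute_of_fix fun p hp => by rcases swap_moved hp with rfl | rfl <;> assumption
    · exact commute_of_fix fun p hp => by rcases swap_moved hp with rfl | rfl <;> assumption
    · rw [hw', hv', Equiv.swap_comm b c]
      exact odd_three_cycle hbc.symm hcd hbd

end Cfsg.Agent.OddGraph
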