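import Mathlib.GroupTheory.Perm.ViaEmbedding
import Mathlib.GroupTheory.Perm.Cycle.Type
import Mathlib.GroupTheory.SpecificGroups.Alternating
import Mathlib.Tactic.Group

/-!
Bookkeeping for products of two involutory permutations of odd order.
-/

set_option autoImplicit false
set_option linter.unusedSectionVars false

namespace Cfsg.Agent.OddGraph

open Equiv Equiv.Perm

variable {α : Type*} [Fintype α] [DecidableEq α]

theorem inv2_apply {x : Perm α} (hx : x * x = 1) (p : α) : x (x p) = p := by
  rw [← Perm.mul_apply, hx, Perm.one_apply]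

theorem orderOf_mul_swap {G : Type*} [Group G] (a b : G) : orderOf (a * b) = orderOf (b * a) := by
  rw [show a * b = a * (b * a) * a⁻¹ by group, ← MulAut.conj_apply, MulEquiv.orderOf_eq]

theorem odd_mul {G : Type*} [Monoid G] {g h : G} (hc : Commute g h) (hg : Odd (orderOf g))
    (hh : Odd (orderOf h)) : Odd (orderOf (g * h)) :=
  (hg.mul hh).of_dvd_nat (hc.orderOf_mul_dvd_mul_orderOf)

/-- Two commuting layers. -/
theorem odd_layers {G : Type*} [Monoid G] {x' u z' w : G} (hxu : Commute x' u) (hxw : Commute x' w)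
    (hzu : Commute z' u) (hzw : Commute z' w) (h1 : Odd (orderOf (x' * z')))
    (h2 : Odd (orderOf (u * w))) : Odd (orderOf (x' * u * (z' * w))) := by
  rw [show x' * u * (z' * w) = x' * z' * (u * w) by rw [mul_assoc, ← mul_assoc u, hzu.symm.eq]; simp only [mul_assoc]]
  exact odd_mul ((hxu.mul_left hzu).mul_right (hxw.mul_left hzw)) h1 h2

theorem commute_of_fix {x u : Perm α} (h : ∀ p, u p ≠ p → x p = p) : Commute x u := by
  refine Perm.Disjoint.commute fun p => ?_
  by_cases hp : u p = p
  · exact Or.inr hp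
  · exact Or.inl (h p hp)

theorem fix_of_notMem {x : Perm α} {p : α} (h : p ∉ x.support) : x p = p :=
  Perm.notMem_support.1 h

theorem swap_moved {a b p : α} (h : Equiv.swap a b p ≠ p) : p = a ∨ p = b := by
  by_contra hne
  push Not at hne
  exact h (Equiv.swap_apply_of_ne_of_ne hne.1 hne.2)

section Peel

variable {x u : Perm α}

theorem peel_stable (hx : x * x = 1) (hu : u * u = 1) (hag : ∀ p, u p ≠ p → x p = u p) {p : α}
    (hp : u p = p) : u (x p) = x p := by
  by_contra hne
  have h1 := hag _ hne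
  rw [inv2_apply hx] at h1
  have h2 : u p = x p := by
    conv_lhs => rw [h1]
    exact inv2_apply hu _
  exact hne (by rw [← h1, ← h2, hp])

theorem peel_apply (hu : u * u = 1) (hag : ∀ p, u p ≠ p → x p = u p) {p : α} (hp : u p ≠ p) :
    (x * u) p = p := by
  have : u (u p) ≠ u p := by rw [inv2_apply hu]; exact hp.symm
  rw [Perm.mul_apply, hag _ this, inv2_apply hu]

theorem peel_apply_fix {p : α} (hp : u p = p) : (x * u) p = x p := by
  rw [Perm.mul_apply, hp]

theorem peel_comm (hx : x * x = 1) (hu : u * u = 1) (hag : ∀ p, u p ≠ p → x p = u p) :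
    Commute x u := by
  refine Equiv.ext fun p => ?_
  by_cases hp : u p = p
  · rw [peel_apply_fix hp, Perm.mul_apply, peel_stable hx hu hag hp]
  · rw [peel_apply hu hag hp, Perm.mul_apply, hag p hp, inv2_apply hu]

theorem peel_sq (hx : x * x = 1) (hu : u * u = 1) (hag : ∀ p, u p ≠ p → x p = u p) :
    x * u * (x * u) = 1 := by
  rw [show x * u * (x * u) = x * (u * x) * u by simp only [mul_assoc], ← (peel_comm hx hu hag).eq,
    show x * (x * u) * u = (x * x) * (u * u) by simp only [mul_assoc], hx, hu, mul_one]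

theorem peel_back (hu : u * u = 1) : x * u * u = x := by
  rw [mul_assoc, hu, mul_one]

theorem peel_support (hu : u * u = 1) (hag : ∀ p, u p ≠ p → x p = u p) :
    (x * u).support = x.support \ u.support := by
  ext p
  simp only [Finset.mem_sdiff, Perm.mem_support]
  by_cases hp : u p = p
  · rw [peel_apply_fix hp]; simp [hp]
  · rw [peel_apply hu hag hp]; simp [hp]

theorem peel_card (hu : u * u = 1) (hag : ∀ p, u p ≠ p → x p = u p) :
    (x * u).support.card + u.support.card = x.support.card := by
  rw [peel_support hu hag]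
  refine Finset.card_sdiff_add_card_eq_card fun p hp => ?_
  rw [Perm.mem_support] at hp ⊢
  rw [hag p hp]
  exact hp

end Peel

section Join

variable {z w : Perm α}

theorem join_comm (hd : ∀ p, w p ≠ p → z p = p) : Commute z w := commute_of_fix hd

theorem join_sq (hz : z * z = 1) (hw : w * w = 1) (hd : ∀ p, w p ≠ p → z p = p) :
    z * w * (z * w) = 1 := by
  rw [show z * w * (z * w) = z * (w * z) * w by simp only [mul_assoc], ← (join_comm hd).eq,
    show z * (z * w) * w = (z * z) * (w * w) by simp only [mul_assoc], hz, hw, mul_one]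

theorem join_disjoint (hd : ∀ p, w p ≠ p → z p = p) : Perm.Disjoint z w := fun p => by
  by_cases hp : w p = p
  · exact Or.inr hp
  · exact Or.inl (hd p hp)

theorem join_support (hd : ∀ p, w p ≠ p → z p = p) : (z * w).support = z.support ∪ w.support :=
  (join_disjoint hd).support_mul

theorem join_card (hd : ∀ p, w p ≠ p → z p = p) :
    (z * w).support.card = z.support.card + w.support.card :=
  (join_disjoint hd).card_support_mul

theorem join_apply_moved (hw : w * w = 1) (hd : ∀ p, w p ≠ p → z p = p) {p : α} (hp : w p ≠ p) :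
    (z * w) p = w p := by
  rw [Perm.mul_apply, hd _ (by rw [inv2_apply hw]; exact hp.symm)]

theorem join_apply_fix {p : α} (hp : w p = p) : (z * w) p = z p := by
  rw [Perm.mul_apply, hp]

end Join

section Embed

variable {k : ℕ} (e : Fin k ↪ α)

/-- A permutation of `Fin k` seen on the image of an embedding. -/
noncomputable def emb : Perm (Fin k) →* Perm α := Perm.viaEmbeddingHom e

theorem emb_apply (P : Perm (Fin k)) (i : Fin k) : emb e P (e i) = e (P i) :=
  Perm.viaEmbedding_apply P e i

theorem emb_fix (P : Perm (Fin k)) {p : α} (hp : ∀ i, p ≠ e i) : emb e P p = p :=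
  Perm.viaEmbedding_apply_of_notMem P e p (by rintro ⟨i, rfl⟩; exact hp i rfl)

theorem emb_sq {P : Perm (Fin k)} (h : P * P = 1) : emb e P * emb e P = 1 := by
  rw [← map_mul, h, map_one]

theorem emb_moved {P : Perm (Fin k)} {p : α} (h : emb e P p ≠ p) : ∃ i, e i = p := by
  by_contra hne
  push Not at hne
  exact h (emb_fix e P fun i => (hne i).symm)

theorem emb_support {P : Perm (Fin k)} (h : ∀ i, P i ≠ i) :
    (emb e P).support = Finset.univ.map e := by
  ext p
  simp only [Perm.mem_support, Finset.mem_map, Finset.mem_univ, true_and]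
  refine ⟨emb_moved e, ?_⟩
  rintro ⟨i, rfl⟩
  rw [emb_apply]
  exact e.injective.ne (h i)

theorem emb_card {P : Perm (Fin k)} (h : ∀ i, P i ≠ i) : (emb e P).support.card = k := by
  rw [emb_support e h, Finset.card_map, Finset.card_univ, Fintype.card_fin]

theorem emb_agree {x : Perm α} {P : Perm (Fin k)} (h : ∀ i, x (e i) = e (P i)) :
    ∀ p, emb e P p ≠ p → x p = emb e P p := by
  intro p hp
  obtain ⟨i, rfl⟩ := emb_moved e hp
  rw [emb_apply, h]

theorem emb_commute {x : Perm α} (P : Perm (Fin k)) (h : ∀ i, x (e i) = e i) :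
    Commute x (emb e P) := commute_of_fix fun p hp => by
  obtain ⟨i, rfl⟩ := emb_moved e hp
  exact h i

theorem emb_odd {P : Perm (Fin k)} {n : ℕ} (hn : Odd n) (h : P ^ n = 1) :
    Odd (orderOf (emb e P)) :=
  hn.of_dvd_nat (orderOf_dvd_of_pow_eq_one (by rw [← map_pow, h, map_one]))

end Embed

theorem odd_three_cycle {a b c : α} (hab : a ≠ b) (hac : a ≠ c) (hbc : b ≠ c) :
    Odd (orderOf (Equiv.swap a b * Equiv.swap a c)) := by
  rw [(Perm.isThreeCycle_swap_mul_swap_same hab hac hbc).orderOf]
  decide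

theorem odd_returns {g : Perm α} (h : ∀ v, ∃ j, Odd j ∧ (g ^ j) v = v) : Odd (orderOf g) := by
  choose j hj hv using h
  have hN : Odd (∏ v : α, j v) :=
    Finset.prod_induction _ Odd (fun a b => Odd.mul) odd_one fun v _ => hj v
  refine hN.of_dvd_nat (orderOf_dvd_of_pow_eq_one (Equiv.ext fun v => ?_))
  obtain ⟨m, hm⟩ := Finset.dvd_prod_of_mem j (Finset.mem_univ v)
  rw [hm, pow_mul, Perm.one_apply]
  exact Perm.pow_apply_eq_self_of_apply_eq_self (hv v) m

/-- Splicing finitely many points into the cycles of a permutation with detours of odd length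
keeps the order odd. -/
theorem odd_lift (g g' : Perm α) (S : Finset α) (hpres : ∀ p, p ∉ S → g p ∉ S)
    (hstep : ∀ p, p ∉ S → ∃ i, Odd i ∧ (g' ^ i) p = g p)
    (hesc : ∀ s ∈ S, ∃ i, (g' ^ i) s ∉ S) (hodd : Odd (orderOf g)) : Odd (orderOf g') := by
  have key : ∀ j : ℕ, ∀ p, p ∉ S → (g ^ j) p ∉ S ∧ ∃ k, k % 2 = j % 2 ∧ (g' ^ k) p = (g ^ j) p := by
    intro j
    induction j with
    | zero => exact fun p hp => ⟨by simpa using hp, 0, rfl, by simp⟩
    | succ j ih =>
      intro p hp
      obtain ⟨hq, k, hk, hkp⟩ := ih p hp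
      obtain ⟨i, hi, hip⟩ := hstep _ hq
      rw [pow_succ', Perm.mul_apply]
      refine ⟨hpres _ hq, i + k, ?_, ?_⟩
      · have := Nat.odd_iff.1 hi
        omega
      · rw [pow_add, Perm.mul_apply, hkp, hip]
  have hout : ∀ p, p ∉ S → ∃ j, Odd j ∧ (g' ^ j) p = p := by
    intro p hp
    obtain ⟨-, k, hk, hkp⟩ := key (orderOf g) p hp
    refine ⟨k, Nat.odd_iff.2 (hk.trans (Nat.odd_iff.1 hodd)), ?_⟩
    rw [hkp, pow_orderOf_eq_one, Perm.one_apply]
  refine odd_returns fun v => ?_
  by_cases hv : v ∈ S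
  · obtain ⟨i, hi⟩ := hesc v hv
    obtain ⟨j, hj, hjp⟩ := hout _ hi
    refine ⟨j, hj, (g' ^ i).injective ?_⟩
    rw [← Perm.mul_apply, ← pow_add, add_comm, pow_add, Perm.mul_apply, hjp]
  · exact hout v hv

theorem preserved_of_fix {g : Perm α} {S : Finset α} (h : ∀ s ∈ S, g s = s) :
    ∀ p, p ∉ S → g p ∉ S := fun p hp hgp => hp (by
  have := g.injective (h _ hgp)
  rwa [this] at hgp)

theorem pow_three_apply (g : Perm α) (p : α) : (g ^ 3) p = g (g (g p)) := by
  simp [pow_succ]

theorem pow_two_apply (g : Perm α) (p : α) : (g ^ 2) p = g (g p) := by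
  simp [pow_succ]

end Cfsg.Agent.OddGraph
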