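import Cfsg.Agent.OddGraph.PermCommon

/-!
The odd product graph on a class of involutions of a finite symmetric group.
-/

set_option autoImplicit false
set_option linter.unusedSectionVars false

namespace Cfsg.Agent.OddGraph

open Equiv Equiv.Perm

variable {α : Type*} [Fintype α] [DecidableEq α]

def extraC4Mid : Perm (Fin 5) := Equiv.swap 0 4 * Equiv.swap 1 2
def pairs5 : Perm (Fin 5) := Equiv.swap 0 1 * Equiv.swap 2 3
def shifted5 : Perm (Fin 5) := Equiv.swap 1 2 * Equiv.swap 3 0

set_option maxRecDepth 10000 in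
theorem extra_facts : extraC4Mid * extraC4Mid = 1 ∧ (pairs5 * extraC4Mid) ^ 5 = 1 ∧
    (extraC4Mid * shifted5) ^ 3 = 1 ∧ extraC4Mid.support.card = 4 := by
  refine ⟨?_, ?_, ?_, ?_⟩ <;> decide

theorem bad_common {x y : Perm α} (hx : x * x = 1) (hy : y * y = 1) (h : Bad x y)
    (hn : 5 ≤ Fintype.card α) :
    ∃ z : Perm α, z * z = 1 ∧ z.support.card = x.support.card ∧ Odd (orderOf (x * z)) ∧
      Odd (orderOf (z * y)) := by
  obtain ⟨e, hxe, hye⟩ := c4_points hx hy
    (bad_hasC4 hx hy hx hy (fun _ _ => rfl) (fun _ _ => rfl) h)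
  obtain ⟨u, hu⟩ : ∃ u, u ∉ x.support := by
    by_contra hno
    push Not at hno
    have : x.support = Finset.univ := Finset.eq_univ_iff_forall.2 hno
    have h4 := h.1
    rw [this, Finset.card_univ] at h4
    omega
  have hue : ∀ i, e i ≠ u := fun i he => hu (by
    rw [← he, Perm.mem_support, hxe]
    exact e.injective.ne ((by decide : ∀ j, pairs4 j ≠ j) i))
  let f : Fin 5 ↪ α := vecEmb ![e 0, e 1, e 2, e 3, u] (by
    simp [List.ofFn_succ, e.injective.eq_iff, hue])
  have hxT : x.support = Finset.univ.map e := by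
    symm
    refine Finset.eq_of_subset_of_card_le (fun p hp => ?_) ?_
    · obtain ⟨i, -, rfl⟩ := Finset.mem_map.1 hp
      rw [Perm.mem_support, hxe]
      exact e.injective.ne ((by decide : ∀ j, pairs4 j ≠ j) i)
    · rw [h.1, Finset.card_map, Finset.card_univ, Fintype.card_fin]
  have off : ∀ p, (∀ i, p ≠ f i) → x p = p ∧ y p = p := by
    intro p hp
    have hp' : p ∉ x.support := by
      rw [hxT, Finset.mem_map]
      rintro ⟨i, -, rfl⟩
      fin_cases i
      · exact hp 0 rfl
      · exact hp 1 rfl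
      · exact hp 2 rfl
      · exact hp 3 rfl
    exact ⟨fix_of_notMem hp', fix_of_notMem (h.2.1 ▸ hp')⟩
  have xu : x u = u := fix_of_notMem hu
  have yu : y u = u := fix_of_notMem (h.2.1 ▸ hu)
  have ex : x = emb f pairs5 := by
    refine Equiv.ext fun p => ?_
    by_cases hp : ∃ i, f i = p
    · obtain ⟨i, rfl⟩ := hp
      rw [emb_apply]
      fin_cases i <;>
        simp [f, vecEmb_apply, pairs5, pairs4, Equiv.swap_apply_def, hxe, xu]
    · push Not at hp
      rw [emb_fix f _ fun i => (hp i).symm, (off p fun i => (hp i).symm).1]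
  have ey : y = emb f shifted5 := by
    refine Equiv.ext fun p => ?_
    by_cases hp : ∃ i, f i = p
    · obtain ⟨i, rfl⟩ := hp
      rw [emb_apply]
      fin_cases i <;>
        simp [f, vecEmb_apply, shifted5, shifted4, Equiv.swap_apply_def, hye, yu]
    · push Not at hp
      rw [emb_fix f _ fun i => (hp i).symm, (off p fun i => (hp i).symm).2]
  obtain ⟨f1, f2, f3, f4⟩ := extra_facts
  refine ⟨emb f extraC4Mid, emb_sq f f1, ?_, ?_, ?_⟩
  · have : (emb f extraC4Mid).support = extraC4Mid.support.map f := by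
      ext p
      simp only [Finset.mem_map, Perm.mem_support]
      constructor
      · intro hp
        obtain ⟨i, rfl⟩ := emb_moved f hp
        rw [emb_apply] at hp
        exact ⟨i, fun hi => hp (by rw [hi]), rfl⟩
      · rintro ⟨i, hi, rfl⟩
        rw [emb_apply]
        exact f.injective.ne hi
    rw [this, Finset.card_map, f4, h.1]
  · rw [ex, ← map_mul]
    exact emb_odd f (by decide) f2
  · rw [ey, ← map_mul]
    exact emb_odd f (by decide) f3

theorem cycleType_of_sq {x : Perm α} (hx : x * x = 1) :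
    x.cycleType = Multiset.replicate (x.support.card / 2) 2 := by
  have h2 : ∀ n ∈ x.cycleType, n = 2 := fun n hn =>
    le_antisymm (Nat.le_of_dvd two_pos ((Perm.dvd_of_mem_cycleType hn).trans
      (orderOf_dvd_of_pow_eq_one (by rw [sq, hx])))) (Perm.two_le_of_mem_cycleType hn)
  have hr := Multiset.eq_replicate_card.2 h2
  have hs := Perm.sum_cycleType x
  rw [hr, Multiset.sum_replicate, smul_eq_mul] at hs
  rw [← hs, Nat.mul_div_cancel _ two_pos]
  exact hr

theorem isConj_of_card {x y : Perm α} (hx : x * x = 1) (hy : y * y = 1)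
    (h : x.support.card = y.support.card) : IsConj x y := by
  rw [Perm.isConj_iff_cycleType_eq, cycleType_of_sq hx, cycleType_of_sq hy, h]

theorem card_of_isConj {x y : Perm α} (h : IsConj x y) : x.support.card = y.support.card := by
  rw [← Perm.sum_cycleType, ← Perm.sum_cycleType, Perm.isConj_iff_cycleType_eq.1 h]

theorem commuting_pair {t : Perm α} (ht : t * t = 1) (ht1 : t ≠ 1) (hn : 4 ≤ Fintype.card α) :
    ∃ y : Perm α, IsConj t y ∧ y ≠ t ∧ Commute t y := by
  obtain ⟨a, ha⟩ : ∃ a, t a ≠ a := by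
    by_contra hno
    push Not at hno
    exact ht1 (Equiv.ext hno)
  by_cases h2 : ∃ c, t c ≠ c ∧ c ≠ a ∧ c ≠ t a
  · obtain ⟨c, hc, hca, hcb⟩ := h2
    obtain ⟨b, hb⟩ : ∃ b, t a = b := ⟨_, rfl⟩
    obtain ⟨d, hd⟩ : ∃ d, t c = d := ⟨_, rfl⟩
    rw [hb] at ha hcb
    rw [hd] at hc
    have tb : t b = a := by rw [← hb, inv2_apply ht]
    have td : t d = c := by rw [← hd, inv2_apply ht]
    have hda : d ≠ a := fun e => hcb (by rw [← td, e, hb])
    have hdb : d ≠ b := fun e => hca (by rw [← td, e, tb])
    set σ := Equiv.swap b c with hσ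
    refine ⟨σ * t * σ⁻¹, isConj_iff.2 ⟨σ, rfl⟩, fun e => ?_, ?_⟩
    · have h := congrArg (fun g : Perm α => g a) e
      simp only [hσ, Equiv.swap_inv, Perm.mul_apply, hb] at h
      rw [Equiv.swap_apply_of_ne_of_ne ha.symm hca.symm, hb, Equiv.swap_apply_left] at h
      exact hcb h
    · refine Equiv.ext fun p => ?_
      simp only [hσ, Equiv.swap_inv, Perm.mul_apply]
      by_cases hpa : p = a
      · subst hpa
        simp [Equiv.swap_apply_def, hb, tb, hd, td, ha, ha.symm, hca, hca.symm, hcb, hcb.symm, hc,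
          hc.symm, hda, hda.symm, hdb, hdb.symm]
      by_cases hpb : p = b
      · subst hpb
        simp [Equiv.swap_apply_def, hb, tb, hd, td, ha, ha.symm, hca, hca.symm, hcb, hcb.symm, hc,
          hc.symm, hda, hda.symm, hdb, hdb.symm]
      by_cases hpc : p = c
      · subst hpc
        simp [Equiv.swap_apply_def, hb, tb, hd, td, ha, ha.symm, hca, hca.symm, hcb, hcb.symm, hc,
          hc.symm, hda, hda.symm, hdb, hdb.symm]
      by_cases hpd : p = d
      · subst hpd
        simp [Equiv.swap_apply_def, hb, tb, hd, td, ha, ha.symm, hca, hca.symm, hcb, hcb.symm, hc,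
          hc.symm, hda, hda.symm, hdb, hdb.symm]
      have n1 : t p ≠ a := fun e => hpb (by rw [← inv2_apply ht p, e, hb])
      have n2 : t p ≠ b := fun e => hpa (by rw [← inv2_apply ht p, e, tb])
      have n3 : t p ≠ c := fun e => hpd (by rw [← inv2_apply ht p, e, hd])
      simp [Equiv.swap_apply_def, hpb, hpc, n2, n3, inv2_apply ht]
  · push Not at h2
    obtain ⟨b, hb⟩ : ∃ b, t a = b := ⟨_, rfl⟩
    rw [hb] at ha h2
    have h3 : 2 ≤ (({a, b} : Finset α)ᶜ).card := by
      rw [Finset.card_compl, Finset.card_pair ha.symm]; omega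
    obtain ⟨c, hc, d, hd, hcd⟩ := Finset.one_lt_card.1 h3
    simp only [Finset.mem_compl, Finset.mem_insert, Finset.mem_singleton, not_or] at hc hd
    have tc : t c = c := by_contra fun h => hc.2 (h2 c h hc.1)
    have td : t d = d := by_contra fun h => hd.2 (h2 d h hd.1)
    have hsupp : t.support = {a, b} := by
      ext p
      simp only [Perm.mem_support, Finset.mem_insert, Finset.mem_singleton]
      constructor
      · intro hp
        by_cases hpa : p = a
        · exact Or.inl hpa
        · exact Or.inr (h2 p hp hpa)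
      · rintro (rfl | rfl)
        · rw [hb]; exact ha
        · rw [← hb, inv2_apply ht, hb]; exact ha.symm
    refine ⟨Equiv.swap c d, isConj_of_card ht (swap_sq c d) ?_, fun e => ?_, ?_⟩
    · rw [hsupp, Finset.card_pair ha.symm, Perm.card_support_swap hcd]
    · have := congrArg (fun g : Perm α => g c) e
      simp only [Equiv.swap_apply_left, tc] at this
      exact hcd this.symm
    · exact commute_of_fix fun p hp => by rcases swap_moved hp with rfl | rfl <;> assumption

/-- The odd product graph on an involution class of a symmetric group. -/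
theorem sym_diam_two (hn : 5 ≤ Fintype.card α) (t : Perm α) (ht : orderOf t = 2) :
    (SimpleGraph.fromRel fun x y : {x : Perm α // IsConj t x} =>
        Odd (orderOf (x.1 * y.1))).Connected ∧
      (SimpleGraph.fromRel fun x y : {x : Perm α // IsConj t x} =>
        Odd (orderOf (x.1 * y.1))).diam = 2 := by
  have ht2 : t * t = 1 := by rw [← sq, ← ht, pow_orderOf_eq_one]
  have ht1 : t ≠ 1 := fun e => by rw [e, orderOf_one] at ht; omega
  have hsq : ∀ x, IsConj t x → x * x = 1 := by
    intro x hx
    obtain ⟨c, rfl⟩ := isConj_iff.1 hx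
    rw [show c * t * c⁻¹ * (c * t * c⁻¹) = c * (t * t) * c⁻¹ by group, ht2, mul_one, mul_inv_cancel]
  refine connected_diam_two (fun x y hx hy _ => ?_) ?_
  · have hc : x.support.card = y.support.card := (card_of_isConj hx).symm.trans (card_of_isConj hy)
    obtain ⟨z, hz, hzc, h1, h2⟩ : ∃ z : Perm α, z * z = 1 ∧ z.support.card = x.support.card ∧
        Odd (orderOf (x * z)) ∧ Odd (orderOf (z * y)) := by
      by_cases hB : Bad x y
      · exact bad_common (hsq x hx) (hsq y hy) hB hn
      · obtain ⟨z, hz, -, hzc, h1, h2⟩ :=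
          good_of_not_bad _ x y le_rfl (hsq x hx) (hsq y hy) hc hB
        exact ⟨z, hz, hzc, h1, h2⟩
    exact ⟨z, isConj_of_card ht2 hz ((card_of_isConj hx).trans hzc.symm), h1, h2⟩
  · obtain ⟨y, hy, hne, hcomm⟩ := commuting_pair ht2 ht1 (by omega)
    refine ⟨t, y, IsConj.refl t, hy, hne.symm, fun hodd => ?_⟩
    have hp : (t * y) ^ 2 = 1 := by rw [hcomm.mul_pow, sq, sq, ht2, hsq y hy, one_mul]
    have h1 : orderOf (t * y) ≠ 1 := fun e => hne (by
      rw [orderOf_eq_one_iff] at e
      calc y = t * (t * y) := by rw [← mul_assoc, ht2, one_mul]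
        _ = t := by rw [e, mul_one])
    rw [(Nat.dvd_prime Nat.prime_two).1 (orderOf_dvd_of_pow_eq_one hp) |>.resolve_left h1] at hodd
    exact absurd hodd (by decide)

end Cfsg.Agent.OddGraph
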